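import Mathlib
import Cfsg.Agent.Lib.M11Order.Local
import Cfsg.Agent.Lib.Char.RealOver2
import Cfsg.Agent.Lib.PSL2.Basic
import Cfsg.Agent.S4504

/-!
# Simple groups of order 7920: the principal 11-block
-/

set_option autoImplicit false
set_option linter.style.haveILetI false
set_option linter.unusedVariables false
set_option linter.unusedSectionVars false

namespace Cfsg.Agent.Lib.M11Order

open Subgroup Cfsg Finset Cfsg.Agent.Lib.DefectOne Cfsg.Agent.Lib.DefectOne.FewInd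

open scoped ComplexConjugate MatrixGroups

universe u

variable {G : Type u} [Group G] [Fintype G]

/-- A character vanishing on `⟨x⟩ - 1` has degree divisible by `p`. -/
theorem dvd_dg_of_vanish {p : ℕ} [Fact p.Prime] (χ : IrrCharacter G) {x : G} (hx : orderOf x = p)
    (hv : ∀ i : ZMod p, i ≠ 0 → (χ : G → ℂ) (XX x i) = 0) : p ∣ dg χ := by
  classical
  obtain ⟨χ', n, ρ, hρ, rfl⟩ := χ
  have h1 := card_dvd_of_vanish ρ (zpowers x) (by
    intro t ht
    obtain ⟨i, hi, hi'⟩ := exists_XX hx t.2 ht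
    rw [hi']
    exact hv i hi)
  rw [Nat.card_zpowers, hx] at h1
  have h2 := dg_cast (⟨ρ.character, n, ρ, hρ, rfl⟩ : IrrCharacter G)
  simp only at h2
  rw [Representation.char_one] at h2
  simp only [Module.finrank_fin_fun] at h2
  have h3 : n = dg (⟨ρ.character, n, ρ, hρ, rfl⟩ : IrrCharacter G) := by exact_mod_cast h2
  rw [← h3]
  exact h1

/-- The arithmetic of the degrees in the principal `11`-block. -/
theorem arith11 (α β γ d : ℕ) (ε : ℤ) (m : ℕ) (hsum : α + β + γ = 4) (hε : ε = 1 ∨ ε = -1) (hdvd : d ∣ 7920)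
    (hd : (d : ℤ) = 11 * m + ε * 5) (hm : ε = -1 → 1 ≤ m)
    (hrel : ε * d = 1 - 10 * α + 12 * β + 45 * γ)
    (hsq : 1 + 100 * α + 144 * β + 2025 * γ + 2 * d ^ 2 ≤ 7920) :
    (α = 3 ∧ β = 0 ∧ γ = 1 ∧ d = 16 ∧ ε = 1) ∨ (α = 2 ∧ β = 2 ∧ γ = 0 ∧ d = 5 ∧ ε = 1) := by
  have hd62 : d ≤ 62 := by
    by_contra h
    have h2 : 63 ≤ d := by omega
    nlinarith
  have hα : α ≤ 4 := by omega
  have hβ : β ≤ 4 := by omega
  have hγ : γ = 4 - α - β := by omega
  subst hγ
  rcases hε with rfl | rfl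
  · interval_cases α <;> interval_cases β <;> first
      | omega
      | (exfalso; interval_cases d <;> omega)
  · interval_cases α <;> interval_cases β <;> first
      | omega
      | (exfalso; interval_cases d <;> omega)

/-- An element of order 11 is not conjugate to its inverse. -/
theorem not_conj_inv_of_odd {x : G} (hx : orderOf x = 11) (hN : Nat.card (normalizer (zpowers x : Set G)) = 55) :
    ¬ IsConj x x⁻¹ := by
  intro h
  obtain ⟨g, hg⟩ := isConj_iff.1 h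
  have hgN : g ∈ normalizer (zpowers x : Set G) := by
    rw [Subgroup.mem_normalizer_iff]
    intro u
    constructor
    · intro hu
      obtain ⟨k, rfl⟩ := Subgroup.mem_zpowers_iff.1 hu
      have h1 : g * x ^ k * g⁻¹ = (x⁻¹) ^ k := by
        rw [← hg, conj_zpow]
      rw [h1]
      exact zpow_mem (inv_mem (mem_zpowers x)) k
    · intro hu
      obtain ⟨k, hk⟩ := Subgroup.mem_zpowers_iff.1 hu
      have h2 : g * x⁻¹ * g⁻¹ = x := by
        have : g * x⁻¹ * g⁻¹ = (g * x * g⁻¹)⁻¹ := by group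
        rw [this, hg, inv_inv]
      have h3 : g * (x⁻¹) ^ k * g⁻¹ = x ^ k := by rw [← conj_zpow, h2]
      have h4 : u = (x⁻¹) ^ k := by
        apply mul_left_cancel (a := g)
        apply mul_right_cancel (b := g⁻¹)
        rw [← hk, h3]
      rw [h4]
      exact zpow_mem (inv_mem (mem_zpowers x)) k
  have h55 : g ^ 55 = 1 := by
    have h1 := Subgroup.orderOf_dvd_natCard (normalizer (zpowers x : Set G)) hgN
    rw [hN] at h1
    exact orderOf_dvd_iff_pow_eq_one.1 h1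
  have h2 : g * g * x = x * (g * g) := by
    have h3 : g * g * x * (g * g)⁻¹ = x := by
      have h4 : g * x⁻¹ * g⁻¹ = x := by
        have : g * x⁻¹ * g⁻¹ = (g * x * g⁻¹)⁻¹ := by group
        rw [this, hg, inv_inv]
      calc g * g * x * (g * g)⁻¹ = g * (g * x * g⁻¹) * g⁻¹ := by group
        _ = x := by rw [hg, h4]
    calc g * g * x = g * g * x * (g * g)⁻¹ * (g * g) := by group
      _ = x * (g * g) := by rw [h3]
  have h3 : g = (g * g) ^ 28 := by
    rw [← pow_two, ← pow_mul]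
    calc g = g ^ 55 * g := by rw [h55, one_mul]
      _ = g ^ (2 * 28) := by rw [← pow_succ]
  have h4 : g * x = x * g := by
    rw [h3]
    exact ((show Commute (g * g) x from h2).pow_left 28).eq
  have h5 : x = x⁻¹ := by
    rw [← hg]
    rw [h4]
    group
  have h6 : x ^ 2 = 1 := by
    rw [pow_two]
    nth_rw 2 [h5]
    group
  have h7 := orderOf_dvd_of_pow_eq_one h6
  rw [hx] at h7
  omega

/-- The data of the principal 11-block of a simple group of order 7920. -/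
structure Tab11 (a1 a2 a3 b e1 e2 : IrrCharacter G) : Prop where
  da1 : dg a1 = 10
  da2 : dg a2 = 10
  da3 : dg a3 = 10
  db : dg b = 45
  de1 : dg e1 = 16
  de2 : dg e2 = 16
  h12 : a1 ≠ a2
  h13 : a1 ≠ a3
  h23 : a2 ≠ a3
  he : e1 ≠ e2
  rel1 : ∀ u : G, ¬ 11 ∣ orderOf u →
    (e1 : G → ℂ) u = 1 - (a1 : G → ℂ) u - (a2 : G → ℂ) u - (a3 : G → ℂ) u + (b : G → ℂ) u
  rel2 : ∀ u : G, ¬ 11 ∣ orderOf u →
    (e2 : G → ℂ) u = 1 - (a1 : G → ℂ) u - (a2 : G → ℂ) u - (a3 : G → ℂ) u + (b : G → ℂ) u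
  cj : ∀ u : G, conj ((e1 : G → ℂ) u) = (e2 : G → ℂ) u
  out : ∀ χ : IrrCharacter G, χ ≠ Cfsg.Agent.Lib.Blocks.Principal.trivChar G → χ ≠ a1 → χ ≠ a2 → χ ≠ a3 → χ ≠ b →
    χ ≠ e1 → χ ≠ e2 → 11 ∣ dg χ

variable [IsSimpleGroup G]

/-- No faithful character of degree five. -/
theorem no_deg5 (hG : Nat.card G = 7920) (θ : IrrCharacter G) (h5 : dg θ = 5) : False := by
  classical
  haveI : Fact (Nat.Prime 11) := ⟨by norm_num⟩
  have hnotprime : ¬ (Nat.card G).Prime := by rw [hG]; norm_num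
  have h := Cfsg.Agent.S4504.result (G := G) 11 (by norm_num) (by rw [hG]; norm_num) (by rw [hG]; norm_num)
    (by
      intro H hH hc
      rcases hH.eq_bot_or_eq_top with h1 | h1
      · rw [h1, Subgroup.card_bot] at hc
        omega
      · rw [h1, Subgroup.card_top, hG] at hc
        omega)
    (θ : G → ℂ) (Cfsg.Agent.Lib.Char.Basic.isCharacter_of_isIrrCharacter θ.2)
    (fun g hg => eq_one_of_value_eq θ (by rw [h5]; norm_num) hg)
    (by
      have : Cfsg.charDegree (θ : G → ℂ) = 5 := h5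
      omega)
  obtain ⟨e⟩ := h
  have hZ : Subgroup.center G = ⊥ := by
    rcases (inferInstance : IsSimpleGroup G).eq_bot_or_eq_top_of_normal (Subgroup.center G) inferInstance with h1 | h1
    · exact h1
    · exfalso
      apply hnotprime
      have hc : ∀ a b : G, a * b = b * a := by
        intro a b
        have h2 : a ∈ Subgroup.center G := by rw [h1]; trivial
        exact (Subgroup.mem_center_iff.1 h2 b).symm
      haveI : IsMulCommutative G := ⟨⟨hc⟩⟩
      exact Group.is_simple_iff_prime_card.mp inferInstance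
  have h1 := Nat.card_congr e.toEquiv
  have h2 : Nat.card (G ⧸ Subgroup.center G) = 7920 := by
    rw [← Subgroup.index_eq_card, hZ, Subgroup.index_bot, hG]
  have h3 := Cfsg.Agent.Lib.PSL2.Basic.card_PSL2_of_two_ne_zero (F := ZMod 11) (by
    intro h
    have h4 : ((2 : ℕ) : ZMod 11) = 0 := by exact_mod_cast h
    rw [ZMod.natCast_eq_zero_iff] at h4
    omega)
  rw [ZMod.card] at h3
  omega


/-- The principal 11-block. -/
theorem exists_tab11 (hG : Nat.card G = 7920) :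
    ∃ a1 a2 a3 b e1 e2 : IrrCharacter G, Tab11 a1 a2 a3 b e1 e2 := by
  classical
  haveI : Fact (Nat.Prime 11) := ⟨by norm_num⟩
  letI : Fintype (IrrCharacter G) := Fintype.ofFinite _
  have hnotprime : ¬ (Nat.card G).Prime := by rw [hG]; norm_num
  have hperf := commutator_eq_top_of_not_prime (G := G) hnotprime
  obtain ⟨P⟩ : Nonempty (Sylow 11 G) := inferInstance
  obtain ⟨hNc, x, hx, hz, hcen⟩ := local11 hG P
  have hζ := Complex.isPrimitiveRoot_exp 11 (by norm_num)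
  obtain ⟨e, t, X, Y, δ, ε, b', hT⟩ := exists_scTable hx hcen P hz hζ
  have he : e = 5 := by
    have h1 := hT.cardN
    rw [hz, hNc] at h1
    omega
  have ht : t = 2 := by
    have h1 := hT.het
    rw [he] at h1
    norm_num at h1
    omega
  subst he ht
  obtain ⟨hτX, hτδ⟩ := hT.triv (by norm_num)
  set τ : IrrCharacter G := Cfsg.Agent.Lib.Blocks.Principal.trivChar G with hτ
  have hτdg : dg τ = 1 := by
    unfold dg charDegree
    simp [hτ]
  set X' := X.erase τ with hX'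
  have hX'card : X'.card = 4 := by
    rw [hX', Finset.card_erase_of_mem hτX, hT.cardX]
  have hXins : X = insert τ X' := (Finset.insert_erase hτX).symm
  have hτX' : τ ∉ X' := Finset.notMem_erase _ _
  -- the degrees in `X'`
  have hdg88 : ∀ χ : IrrCharacter G, dg χ ≤ 88 := by
    intro χ
    have h1 := sum_subset_dg_sq_le (G := G) {χ}
    rw [Finset.sum_singleton, hG] at h1
    by_contra h2
    have h3 : 89 ≤ dg χ := by omega
    nlinarith
  have hXdeg : ∀ χ ∈ X', (dg χ = 10 ∧ δ χ = -1) ∨ (dg χ = 12 ∧ δ χ = 1) ∨ (dg χ = 45 ∧ δ χ = 1) := by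
    intro χ hχ
    have hχX : χ ∈ X := Finset.mem_of_mem_erase hχ
    have hne : χ ≠ τ := Finset.ne_of_mem_erase hχ
    have h1 : dg χ ≠ 1 := fun h => hne (eq_triv_of_deg_one hperf χ h)
    have h2 := dg_pos χ
    have h3 := dg_dvd χ
    rw [hG] at h3
    have key : ∀ d ∈ Finset.Icc 2 88, d ∣ 7920 → d % 11 = 1 ∨ d % 11 = 10 → d = 10 ∨ d = 12 ∨ d = 45 := by decide +kernel
    have h4 : ((dg χ : ℕ) : ℤ) % 11 = δ χ % 11 := hT.degX χ hχX
    have h5 := hT.signX χ hχX
    have h6 := key (dg χ) (Finset.mem_Icc.2 ⟨by omega, hdg88 χ⟩) h3 (by rcases h5 with h | h <;> rw [h] at h4 <;> omega)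
    omega
  -- the counting
  let i10 : IrrCharacter G → ℕ := fun χ => if dg χ = 10 then 1 else 0
  let i12 : IrrCharacter G → ℕ := fun χ => if dg χ = 12 then 1 else 0
  let i45 : IrrCharacter G → ℕ := fun χ => if dg χ = 45 then 1 else 0
  set α := ∑ χ ∈ X', i10 χ with hα
  set β := ∑ χ ∈ X', i12 χ with hβ
  set γ := ∑ χ ∈ X', i45 χ with hγ
  have hcount : α + β + γ = 4 := by
    rw [hα, hβ, hγ, ← Finset.sum_add_distrib, ← Finset.sum_add_distrib, ← hX'card, Finset.card_eq_sum_ones]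
    refine Finset.sum_congr rfl fun χ hχ => ?_
    simp only [i10, i12, i45]
    rcases hXdeg χ hχ with ⟨h, -⟩ | ⟨h, -⟩ | ⟨h, -⟩ <;> simp [h]
  have hsq : ∑ χ ∈ X', dg χ ^ 2 = 100 * α + 144 * β + 2025 * γ := by
    rw [hα, hβ, hγ, Finset.mul_sum, Finset.mul_sum, Finset.mul_sum, ← Finset.sum_add_distrib, ← Finset.sum_add_distrib]
    refine Finset.sum_congr rfl fun χ hχ => ?_
    simp only [i10, i12, i45]
    rcases hXdeg χ hχ with ⟨h, -⟩ | ⟨h, -⟩ | ⟨h, -⟩ <;> simp [h]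
  have hsgn : ∑ χ ∈ X', δ χ * (dg χ : ℤ) = -10 * (α : ℤ) + 12 * β + 45 * γ := by
    rw [hα, hβ, hγ]
    push_cast
    rw [Finset.mul_sum, Finset.mul_sum, Finset.mul_sum, ← Finset.sum_add_distrib, ← Finset.sum_add_distrib]
    refine Finset.sum_congr rfl fun χ hχ => ?_
    simp only [i10, i12, i45]
    rcases hXdeg χ hχ with ⟨h, h'⟩ | ⟨h, h'⟩ | ⟨h, h'⟩ <;> simp [h, h']
  -- the relation at the identity
  have hrel1 : ∀ θ ∈ Y, ε * (dg θ : ℤ) = 1 - 10 * α + 12 * β + 45 * γ := by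
    intro θ hθ
    have h1 := hT.rel 1 (by simp) θ hθ
    rw [hXins, Finset.sum_insert hτX', dg_cast θ, dg_cast τ, hτdg, hτδ] at h1
    simp only [dg_cast] at h1
    have h2 : ε * (dg θ : ℤ) = 1 + ∑ χ ∈ X', δ χ * (dg χ : ℤ) := by
      have h3 : ((ε * (dg θ : ℤ) : ℤ) : ℂ) = ((1 + ∑ χ ∈ X', δ χ * (dg χ : ℤ) : ℤ) : ℂ) := by
        push_cast
        rw [h1]
        push_cast
        ring
      exact_mod_cast h3
    rw [h2, hsgn]
    ring
  obtain ⟨θ₁, θ₂, hθne, hYe⟩ := Finset.card_eq_two.1 hT.cardY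
  have hθ₁ : θ₁ ∈ Y := by rw [hYe]; simp
  have hθ₂ : θ₂ ∈ Y := by rw [hYe]; simp
  have hsame : dg θ₂ = dg θ₁ := by
    have h1 := hrel1 θ₁ hθ₁
    have h2 := hrel1 θ₂ hθ₂
    rcases hT.sign with h | h <;> rw [h] at h1 h2 <;> omega
  have hsum := sum_subset_dg_sq_le (G := G) (X ∪ Y)
  rw [hG, Finset.sum_union hT.disj, hXins, Finset.sum_insert hτX', hτdg, hsq, hYe, Finset.sum_pair hθne, hsame] at hsum
  obtain ⟨m, hm, hm1⟩ := hT.degY θ₁ hθ₁
  have harith := arith11 α β γ (dg θ₁) ε m hcount hT.sign (by rw [← hG]; exact dg_dvd θ₁) (by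
      have : (charDegree ((θ₁ : IrrCharacter G) : G → ℂ) : ℤ) = 11 * (m : ℤ) + ε * (5 : ℕ) := by exact_mod_cast hm
      exact_mod_cast this)
    hm1 (by rw [hrel1 θ₁ hθ₁]) (by
      have : 1 ^ 2 + (100 * α + 144 * β + 2025 * γ) + (dg θ₁ ^ 2 + dg θ₁ ^ 2) ≤ 7920 := hsum
      nlinarith)
  rcases harith with ⟨h3, h0, h1, hd, hε⟩ | ⟨-, -, -, hd, -⟩
  swap
  · exact (no_deg5 hG θ₁ hd).elim
  -- the characters
  let A := X'.filter (fun χ => dg χ = 10)
  let C := X'.filter (fun χ => dg χ = 45)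
  have hAcard : A.card = 3 := by
    rw [Finset.card_filter]
    exact h3
  have hCcard : C.card = 1 := by
    rw [Finset.card_filter]
    exact h1
  have hB : ∀ χ ∈ X', dg χ ≠ 12 := by
    intro χ hχ h12
    have h2 : i12 χ ≤ β := Finset.single_le_sum (f := i12) (fun _ _ => Nat.zero_le _) hχ
    simp only [i12, h12, if_true] at h2
    omega
  obtain ⟨a1, a2, a3, h12, h13, h23, hAe⟩ := Finset.card_eq_three.1 hAcard
  obtain ⟨b, hCe⟩ := Finset.card_eq_one.1 hCcard
  have ha1 : a1 ∈ A := by rw [hAe]; simp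
  have ha2 : a2 ∈ A := by rw [hAe]; simp
  have ha3 : a3 ∈ A := by rw [hAe]; simp
  have hb : b ∈ C := by rw [hCe]; simp
  have hmemA : ∀ χ ∈ A, χ ∈ X' ∧ dg χ = 10 := fun χ hχ => Finset.mem_filter.1 hχ
  have hmemC : ∀ χ ∈ C, χ ∈ X' ∧ dg χ = 45 := fun χ hχ => Finset.mem_filter.1 hχ
  have hδa : ∀ χ ∈ A, δ χ = -1 := by
    intro χ hχ
    obtain ⟨h4, h5⟩ := hmemA χ hχ
    rcases hXdeg χ h4 with ⟨-, h⟩ | ⟨h, -⟩ | ⟨h, -⟩
    · exact h
    · omega
    · omega
  have hδb : δ b = 1 := by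
    obtain ⟨h4, h5⟩ := hmemC b hb
    rcases hXdeg b h4 with ⟨h, -⟩ | ⟨h, -⟩ | ⟨-, h⟩
    · omega
    · omega
    · exact h
  have hX'e : X' = {a1, a2, a3, b} := by
    ext χ
    simp only [Finset.mem_insert, Finset.mem_singleton]
    constructor
    · intro hχ
      rcases hXdeg χ hχ with ⟨h, -⟩ | ⟨h, -⟩ | ⟨h, -⟩
      · have : χ ∈ A := Finset.mem_filter.2 ⟨hχ, h⟩
        rw [hAe] at this
        simp only [Finset.mem_insert, Finset.mem_singleton] at this
        tauto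
      · exact (hB χ hχ h).elim
      · have : χ ∈ C := Finset.mem_filter.2 ⟨hχ, h⟩
        rw [hCe] at this
        simp only [Finset.mem_singleton] at this
        tauto
    · rintro (rfl | rfl | rfl | rfl)
      · exact (hmemA _ ha1).1
      · exact (hmemA _ ha2).1
      · exact (hmemA _ ha3).1
      · exact (hmemC _ hb).1
  have hda1 := (hmemA _ ha1).2
  have hda2 := (hmemA _ ha2).2
  have hda3 := (hmemA _ ha3).2
  have hdb := (hmemC _ hb).2
  have hab1 : a1 ≠ b := fun h => by rw [h] at hda1; omega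
  have hab2 : a2 ≠ b := fun h => by rw [h] at hda2; omega
  have hab3 : a3 ≠ b := fun h => by rw [h] at hda3; omega
  have hXsum : ∀ F : IrrCharacter G → ℂ, ∑ χ ∈ X', F χ = F a1 + F a2 + F a3 + F b := by
    intro F
    rw [hX'e, Finset.sum_insert (by simp [h12, h13, hab1]), Finset.sum_insert (by simp [h23, hab2]),
      Finset.sum_pair hab3]
    ring
  have hrelu : ∀ θ ∈ Y, ∀ u : G, ¬ 11 ∣ orderOf u →
      (θ : G → ℂ) u = 1 - (a1 : G → ℂ) u - (a2 : G → ℂ) u - (a3 : G → ℂ) u + (b : G → ℂ) u := by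
    intro θ hθ u hu
    have h4 := hT.rel u hu θ hθ
    rw [hε, hXins, Finset.sum_insert hτX', hXsum, hτδ, hδa _ ha1, hδa _ ha2, hδa _ ha3, hδb] at h4
    simp only [hτ, Cfsg.Agent.Lib.Blocks.Principal.coe_trivChar] at h4
    push_cast at h4
    rw [one_mul] at h4
    rw [h4]
    ring
  -- the conjugation on `Y`
  have hnc : ¬ IsConj x x⁻¹ := not_conj_inv_of_odd hx (by rw [hz]; exact hNc)
  have hx1i : XX x (1 : ZMod 11) = x := XX_one hx
  have hxm : XX x (-1 : ZMod 11) = x⁻¹ := by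
    apply eq_inv_of_mul_eq_one_left
    have h : XX x (-1 : ZMod 11) * XX x (1 : ZMod 11) = XX x ((-1 : ZMod 11) + 1) := (XX_add hx (-1) 1).symm
    rw [hx1i] at h
    rw [h]
    simp [XX_zero]
  have hmemY : ∀ χ : IrrCharacter G, (χ : G → ℂ) x ≠ (χ : G → ℂ) x⁻¹ → χ ∈ Y := by
    intro χ hχ
    by_contra hnY
    have h10 : (1 : ZMod 11) ≠ 0 := one_ne_zero
    have hm10 : (-1 : ZMod 11) ≠ 0 := neg_ne_zero.2 one_ne_zero
    by_cases hχX : χ ∈ X
    · apply hχ
      have h1 := hT.valX χ hχX 1 h10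
      have h2 := hT.valX χ hχX (-1) hm10
      rw [hx1i] at h1
      rw [hxm] at h2
      rw [h1, h2]
    · have h4 : χ ∉ X ∪ Y := by simp [hχX, hnY]
      apply hχ
      have h1 := hT.out χ h4 1 h10
      have h2 := hT.out χ h4 (-1) hm10
      rw [hx1i] at h1
      rw [hxm] at h2
      rw [h1, h2]
  obtain ⟨χ₀, hχ₀⟩ : ∃ χ : IrrCharacter G, (χ : G → ℂ) x ≠ (χ : G → ℂ) x⁻¹ := by
    by_contra hno
    push Not at hno
    exact hnc (Cfsg.Agent.Lib.Char.CompleteCor.isConj_of_forall_irr hno)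
  let bar : IrrCharacter G → IrrCharacter G := fun χ => ⟨_, Cfsg.Agent.Lib.Char.RealOver.isIrr_conj χ.2⟩
  have hbar : ∀ (χ : IrrCharacter G) (u : G), (bar χ : G → ℂ) u = conj ((χ : G → ℂ) u) := fun _ _ => rfl
  have hinv : ∀ (χ : IrrCharacter G) (u : G), conj ((χ : G → ℂ) u) = (χ : G → ℂ) u⁻¹ := fun χ u =>
    (Cfsg.Agent.Lib.Char.Complete.isIrr_inv χ.2 u).symm
  have hbχ₀ : (bar χ₀ : G → ℂ) x ≠ (bar χ₀ : G → ℂ) x⁻¹ := by
    rw [hbar, hbar, hinv, hinv, inv_inv]
    exact Ne.symm hχ₀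
  have hχ₀Y := hmemY χ₀ hχ₀
  have hbY := hmemY _ hbχ₀
  have hbne : bar χ₀ ≠ χ₀ := by
    intro h
    apply hχ₀
    have h2 : (bar χ₀ : G → ℂ) x = (χ₀ : G → ℂ) x := by rw [h]
    rw [hbar, hinv] at h2
    exact h2.symm
  have hbb : ∀ χ : IrrCharacter G, bar (bar χ) = χ := by
    intro χ
    apply Subtype.ext
    funext u
    rw [hbar, hbar, Complex.conj_conj]
  have hbarY : bar θ₁ = θ₂ := by
    rw [hYe] at hχ₀Y hbY
    simp only [Finset.mem_insert, Finset.mem_singleton] at hχ₀Y hbY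
    rcases hχ₀Y with h | h <;> rcases hbY with h' | h'
    · exact absurd (h'.trans h.symm) hbne
    · rw [← h, h']
    · rw [← h', hbb]
      exact h
    · exact absurd (h'.trans h.symm) hbne
  refine ⟨a1, a2, a3, b, θ₁, θ₂,
    { da1 := hda1, da2 := hda2, da3 := hda3, db := hdb, de1 := hd, de2 := by rw [hsame]; exact hd,
      h12 := h12, h13 := h13, h23 := h23, he := hθne, rel1 := hrelu θ₁ hθ₁, rel2 := hrelu θ₂ hθ₂,
      cj := fun u => by rw [← hbarY], out := ?_ }⟩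
  intro χ h1' h2' h3' h4' h5' h6' h7'
  have hnot : χ ∉ X ∪ Y := by
    intro hm
    rw [Finset.mem_union, hXins, hX'e, hYe] at hm
    simp only [Finset.mem_insert, Finset.mem_singleton] at hm
    tauto
  exact dvd_dg_of_vanish χ hx (fun i hi => hT.out χ hnot i hi)

end Cfsg.Agent.Lib.M11Order
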