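import Mathlib
import Cfsg.Agent.Lib.M11Order.Tab11
import Cfsg.Agent.Lib.Char.PRegular

/-!
# Simple groups of order 7920: the degrees of the irreducible characters
-/

set_option autoImplicit false
set_option linter.style.haveILetI false
set_option linter.unusedVariables false
set_option linter.unusedSectionVars false

namespace Cfsg.Agent.Lib.M11Order

open Subgroup Cfsg Finset Cfsg.Agent.Lib.DefectOne

open scoped ComplexConjugate

universe u

variable {G : Type u} [Group G] [Fintype G]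

/-- Defect zero characters vanish on singular elements. -/
theorem dz (χ : IrrCharacter G) (p n : ℕ) (hp : p.Prime) (hn : p ^ n ∣ Nat.card G) (hn' : ¬ p ^ (n + 1) ∣ Nat.card G)
    (hd : p ^ n ∣ dg χ) (g : G) (hg : p ∣ orderOf g) : (χ : G → ℂ) g = 0 := by
  obtain ⟨χ', k, ρ, hρ, rfl⟩ := χ
  haveI : ρ.IsIrreducible := hρ
  have h2 := dg_cast (⟨ρ.character, k, ρ, hρ, rfl⟩ : IrrCharacter G)
  simp only at h2
  rw [Representation.char_one] at h2
  simp only [Module.finrank_fin_fun] at h2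
  have h3 : k = dg (⟨ρ.character, k, ρ, hρ, rfl⟩ : IrrCharacter G) := by exact_mod_cast h2
  refine Cfsg.Agent.Lib.Char.PRegular.character_eq_zero_of_defect_zero ρ p n hp hn hn' ?_ g hg
  rw [Module.finrank_fin_fun, h3]
  exact hd

variable [IsSimpleGroup G]

theorem selfC11 (hG : Nat.card G = 7920) {h : G} (hh : orderOf h = 11) {c : G} (hc : c * h = h * c) : c ∈ zpowers h := by
  classical
  haveI : Fact (Nat.Prime 11) := ⟨by norm_num⟩
  have hpg : IsPGroup 11 (zpowers h) := by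
    apply IsPGroup.of_card (n := 1)
    rw [Nat.card_zpowers, hh, pow_one]
  obtain ⟨Q, hQ⟩ := hpg.exists_le_sylow
  obtain ⟨-, x, hx, hz, hcen⟩ := local11 hG Q
  have hQc := card_sylow_of_card (p := 11) (m := 720) (by rw [hG]) (by norm_num) Q
  have hQe : zpowers h = (Q : Subgroup G) := by
    apply Subgroup.eq_of_le_of_card_ge hQ
    rw [hQc, Nat.card_zpowers, hh]
  have hxh : x ∈ zpowers h := by
    rw [hQe, ← hz]
    exact mem_zpowers x
  obtain ⟨k, rfl⟩ := Subgroup.mem_zpowers_iff.1 hxh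
  have h1 : c ∈ zpowers (h ^ k) := hcen c ((show Commute c h from hc).zpow_right k).eq
  rw [hz, ← hQe] at h1
  exact h1

theorem order11 (hG : Nat.card G = 7920) {u : G} (hu : 11 ∣ orderOf u) : orderOf u = 11 := by
  haveI : Fact (Nat.Prime 11) := ⟨by norm_num⟩
  have h1 := orderOf_pow_orderOf_div (x := u) (n := 11) (orderOf_pos u).ne' hu
  have h2 : u ∈ zpowers (u ^ (orderOf u / 11)) := selfC11 hG h1 ((Commute.refl u).pow_right _).eq
  have h3 := Subgroup.orderOf_dvd_natCard _ h2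
  rw [Nat.card_zpowers, h1] at h3
  exact (Nat.dvd_prime (by norm_num)).1 h3 |>.resolve_left (by
    intro h4
    rw [h4] at hu
    omega)

variable {a1 a2 a3 b e1 e2 : IrrCharacter G}

theorem no_even5 (hG : Nat.card G = 7920) (T : Tab11 a1 a2 a3 b e1 e2) (u : G) (h5 : 5 ∣ orderOf u) (h2 : 2 ∣ orderOf u) :
    False := by
  have h11 : ¬ 11 ∣ orderOf u := by
    intro h
    rw [order11 hG h] at h5
    omega
  have h1 := T.rel1 u h11
  have hz5 : ∀ χ : IrrCharacter G, 5 ∣ dg χ → (χ : G → ℂ) u = 0 := by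
    intro χ hχ
    exact dz χ 5 1 (by norm_num) (by rw [hG]; norm_num) (by rw [hG]; norm_num) (by simpa using hχ) u h5
  rw [hz5 a1 (by rw [T.da1]; norm_num), hz5 a2 (by rw [T.da2]; norm_num), hz5 a3 (by rw [T.da3]; norm_num),
    hz5 b (by rw [T.db]; norm_num), dz e1 2 4 (by norm_num) (by rw [hG]; norm_num) (by rw [hG]; norm_num)
      (by rw [T.de1]; norm_num) u h2] at h1
  norm_num at h1

/-- The local structure at 5. -/
theorem local5 (hG : Nat.card G = 7920) (T : Tab11 a1 a2 a3 b e1 e2) (P : Sylow 5 G) :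
    Nat.card (normalizer ((P : Subgroup G) : Set G)) = 20 ∧
      ∃ x : G, orderOf x = 5 ∧ zpowers x = (P : Subgroup G) ∧ ∀ c : G, c * x = x * c → c ∈ zpowers x := by
  classical
  haveI : Fact (Nat.Prime 5) := ⟨by norm_num⟩
  haveI : Fact (Nat.Prime 2) := ⟨by norm_num⟩
  haveI : Fact (Nat.Prime 11) := ⟨by norm_num⟩
  have hN : Nat.card G = 5 * 1584 := by rw [hG]
  have hcard := card_sylow_of_card hN (by norm_num) P
  obtain ⟨x, hx, hz⟩ := exists_gen hcard
  obtain ⟨h1, h2, h3⟩ := sylow_arith hN (by norm_num) P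
  set C := centralizer ((P : Subgroup G) : Set G) with hC
  have hCN : C ≤ normalizer ((P : Subgroup G) : Set G) := Subgroup.centralizer_le_normalizer _
  have hmemC : ∀ c : G, c ∈ C ↔ c * x = x * c := by
    intro c
    rw [hC, ← hz]
    exact mem_cent_zpowers
  have hnot2 : ¬ 2 ∣ Nat.card C := by
    intro h
    obtain ⟨c, hc⟩ := exists_prime_orderOf_dvd_card' 2 h
    have hcx := (hmemC c).1 c.2
    have hco : orderOf (c : G) = 2 := by rw [Subgroup.orderOf_coe, hc]
    have hcomm : Commute (c : G) x := hcx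
    have ho := hcomm.orderOf_mul_eq_mul_orderOf_of_coprime (by rw [hco, hx]; norm_num)
    rw [hco, hx] at ho
    exact no_even5 hG T ((c : G) * x) (by rw [ho]; norm_num) (by rw [ho]; norm_num)
  have hnot11 : ¬ 11 ∣ Nat.card C := by
    intro h
    obtain ⟨c, hc⟩ := exists_prime_orderOf_dvd_card' 11 h
    have hcx := (hmemC c).1 c.2
    have hco : orderOf (c : G) = 11 := by rw [Subgroup.orderOf_coe, hc]
    have h4 : x ∈ zpowers (c : G) := selfC11 hG hco hcx.symm
    have h5 := Subgroup.orderOf_dvd_natCard _ h4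
    rw [Nat.card_zpowers, hco, hx] at h5
    omega
  have hCd : Nat.card C ∣ 45 := by
    have h4 : Nat.card C ∣ 176 * 45 := by
      rw [show 176 * 45 = 7920 by norm_num, ← hG]
      exact Subgroup.card_subgroup_dvd_card C
    refine Nat.Coprime.dvd_of_dvd_mul_left ?_ h4
    rw [show 176 = 2 ^ 4 * 11 by norm_num]
    apply Nat.Coprime.mul_right
    · apply Nat.Coprime.pow_right
      exact ((Nat.Prime.coprime_iff_not_dvd (by norm_num)).2 hnot2).symm
    · exact ((Nat.Prime.coprime_iff_not_dvd (by norm_num)).2 hnot11).symm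
  have hdvd := card_norm_dvd hcard
  have hNd : Nat.card (normalizer ((P : Subgroup G) : Set G)) ∣ 180 := by
    refine hdvd.trans ?_
    rw [show 180 = 45 * (5 - 1) by norm_num]
    exact Nat.mul_dvd_mul_right hCd _
  set n5 := Nat.card (Sylow 5 G)
  set N5 := Nat.card (normalizer ((P : Subgroup G) : Set G)) with hN5
  have hkey : ∀ d ∈ Nat.divisors 180, ∀ n ∈ Nat.divisors 7920, n * d = 5 * 1584 → n % 5 = 1 % 5 → d = 20 ∨ d = 45 := by
    decide +kernel
  have hcases := hkey N5 (Nat.mem_divisors.2 ⟨hNd, by norm_num⟩) n5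
    (Nat.mem_divisors.2 ⟨by rw [← hG, hN]; exact Dvd.intro _ h3, by norm_num⟩) h3 h2
  have hxC : x ∈ C := (hmemC x).2 rfl
  have hCpos : 0 < Nat.card C := Nat.card_pos
  have hNeq : N5 = 20 := by
    rcases hcases with h | h
    · exact h
    · exfalso
      have hdvd' : 45 ∣ Nat.card C * (5 - 1) := by
        rw [← h]
        exact hdvd
      have h4 : 45 ∣ Nat.card C := by
        have : 45 ∣ Nat.card C * 4 := hdvd'
        exact Nat.Coprime.dvd_of_dvd_mul_right (by norm_num) this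
      have h5 : Nat.card C = 45 := Nat.dvd_antisymm hCd h4
      have h6 : C = normalizer ((P : Subgroup G) : Set G) := by
        apply Subgroup.eq_of_le_of_card_ge hCN
        rw [← hN5, h, h5]
      have h7 := Cfsg.Agent.Lib.Basic.SmallSimple.card_eq_of_le_centralizer (by rw [hG]; norm_num) P (by
        show normalizer ((P : Subgroup G) : Set G) ≤ centralizer ((P : Subgroup G) : Set G)
        rw [← hC, h6])
      rw [hcard, hG] at h7
      omega
  refine ⟨hNeq, x, hx, hz, ?_⟩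
  have hC5 : Nat.card C = 5 := by
    have h4 : Nat.card C ∣ 20 := by
      rw [← hNeq]
      exact Subgroup.card_dvd_of_le hCN
    have h5 : Nat.card C ∣ Nat.gcd 45 20 := Nat.dvd_gcd hCd h4
    have h6 : (5 : ℕ) ∣ Nat.card C := by
      have : Nat.card (zpowers x) ∣ Nat.card C := Subgroup.card_dvd_of_le (by
        rw [zpowers_le]
        exact hxC)
      rwa [Nat.card_zpowers, hx] at this
    have h7 : Nat.gcd 45 20 = 5 := by norm_num
    rw [h7] at h5
    exact Nat.dvd_antisymm h5 h6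
  intro c hc
  have h4 : zpowers x = C := by
    apply Subgroup.eq_of_le_of_card_ge
    · rw [zpowers_le]
      exact hxC
    · rw [hC5, Nat.card_zpowers, hx]
  rw [h4]
  exact (hmemC c).2 hc

theorem selfC5 (hG : Nat.card G = 7920) (T : Tab11 a1 a2 a3 b e1 e2) {h : G} (hh : orderOf h = 5) {c : G} (hc : c * h = h * c) :
    c ∈ zpowers h := by
  classical
  haveI : Fact (Nat.Prime 5) := ⟨by norm_num⟩
  have hpg : IsPGroup 5 (zpowers h) := by
    apply IsPGroup.of_card (n := 1)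
    rw [Nat.card_zpowers, hh, pow_one]
  obtain ⟨Q, hQ⟩ := hpg.exists_le_sylow
  obtain ⟨-, x, hx, hz, hcen⟩ := local5 hG T Q
  have hQc := card_sylow_of_card (p := 5) (m := 1584) (by rw [hG]) (by norm_num) Q
  have hQe : zpowers h = (Q : Subgroup G) := by
    apply Subgroup.eq_of_le_of_card_ge hQ
    rw [hQc, Nat.card_zpowers, hh]
  have hxh : x ∈ zpowers h := by
    rw [hQe, ← hz]
    exact mem_zpowers x
  obtain ⟨k, rfl⟩ := Subgroup.mem_zpowers_iff.1 hxh
  have h1 : c ∈ zpowers (h ^ k) := hcen c ((show Commute c h from hc).zpow_right k).eq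
  rw [hz, ← hQe] at h1
  exact h1


/-- The arithmetic of the remaining degrees. -/
theorem arith_rest (k1 k2 r : ℕ) (h1 : 0 < k1) (h2 : 0 < k2) (hk1 : k1 ≤ 8) (hk2 : k2 ≤ 8)
    (h : k1 ^ 2 + k2 ^ 2 + 25 * r = 42) : r = 1 ∧ ((k1 = 1 ∧ k2 = 4) ∨ (k1 = 4 ∧ k2 = 1)) := by
  have hr : r ≤ 1 := by
    by_contra h3
    have h4 : 2 ≤ r := by omega
    nlinarith
  interval_cases k1 <;> interval_cases k2 <;> omega

/-- The irreducible characters of a simple group of order 7920. -/
structure T10 (a1 a2 a3 b e1 e2 c g d : IrrCharacter G) : Prop where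
  t11 : Tab11 a1 a2 a3 b e1 e2
  dc : dg c = 11
  dg' : dg g = 44
  dd : dg d = 55
  all : ∀ χ : IrrCharacter G, χ = Cfsg.Agent.Lib.Blocks.Principal.trivChar G ∨ χ = a1 ∨ χ = a2 ∨ χ = a3 ∨ χ = b ∨ χ = e1 ∨ χ = e2 ∨
    χ = c ∨ χ = g ∨ χ = d
  rel5 : ∀ u : G, ¬ 5 ∣ orderOf u →
    1 + (e1 : G → ℂ) u + (e2 : G → ℂ) u + (c : G → ℂ) u - (g : G → ℂ) u = 0

theorem dg_triv : dg (Cfsg.Agent.Lib.Blocks.Principal.trivChar G) = 1 := by
  unfold dg charDegree
  simp

set_option maxHeartbeats 1000000 in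
theorem exists_T10 (hG : Nat.card G = 7920) :
    ∃ a1 a2 a3 b e1 e2 c g d : IrrCharacter G, T10 a1 a2 a3 b e1 e2 c g d := by
  classical
  haveI : Fact (Nat.Prime 5) := ⟨by norm_num⟩
  haveI : Fact (Nat.Prime 11) := ⟨by norm_num⟩
  letI : Fintype (IrrCharacter G) := Fintype.ofFinite _
  obtain ⟨a1, a2, a3, b, e1, e2, T⟩ := exists_tab11 hG
  obtain ⟨P⟩ : Nonempty (Sylow 5 G) := inferInstance
  obtain ⟨hNc, x, hx, hz, hcen⟩ := local5 hG T P
  have hζ := Complex.isPrimitiveRoot_exp 5 (by norm_num)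
  obtain ⟨e, t, X, Y, δ, ε, b', hT⟩ := exists_scTable hx hcen P hz hζ
  have he : e = 4 := by
    have h1 := hT.cardN
    rw [hz, hNc] at h1
    omega
  have ht : t = 1 := by
    have h1 := hT.het
    rw [he] at h1
    norm_num at h1
    omega
  subst he ht
  set τ : IrrCharacter G := Cfsg.Agent.Lib.Blocks.Principal.trivChar G with hτ
  have hτdg : dg τ = 1 := dg_triv
  have hdg88 : ∀ χ : IrrCharacter G, dg χ ≤ 88 := by
    intro χ
    have h1 := sum_subset_dg_sq_le (G := G) {χ}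
    rw [Finset.sum_singleton, hG] at h1
    by_contra h2
    have h3 : 89 ≤ dg χ := by omega
    nlinarith
  -- the sign function
  let σ : IrrCharacter G → ℤ := fun χ => if χ ∈ X then δ χ else -ε
  have hσ : ∀ χ ∈ X ∪ Y, (σ χ = 1 ∨ σ χ = -1) ∧ (dg χ : ℤ) ≡ σ χ [ZMOD 5] := by
    intro χ hχ
    by_cases hX : χ ∈ X
    · simp only [σ, if_pos hX]
      exact ⟨hT.signX χ hX, hT.degX χ hX⟩
    · have hY : χ ∈ Y := (Finset.mem_union.1 hχ).resolve_left hX
      simp only [σ, if_neg hX]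
      obtain ⟨m, hm, -⟩ := hT.degY χ hY
      constructor
      · rcases hT.sign with h | h <;> rw [h] <;> simp
      · unfold Int.ModEq
        have hm' : ((dg χ : ℕ) : ℤ) = 5 * (m : ℤ) + ε * ((4 : ℕ) : ℤ) := by exact_mod_cast hm
        rw [hm']
        rcases hT.sign with h | h <;> rw [h] <;> push_cast <;> omega
  have hnd : ∀ χ ∈ X ∪ Y, ¬ 5 ∣ dg χ := by
    intro χ hχ h
    obtain ⟨h1, h2⟩ := hσ χ hχ
    unfold Int.ModEq at h2
    rcases h1 with h1 | h1 <;> rw [h1] at h2 <;> omega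
  have hiff : ∀ χ : IrrCharacter G, χ ∈ X ∪ Y ↔ ¬ 5 ∣ dg χ := by
    intro χ
    refine ⟨hnd χ, fun h => ?_⟩
    by_contra hn
    exact h (dvd_dg_of_vanish χ hx (fun i hi => hT.out χ hn i hi))
  have hXYcard : (X ∪ Y).card = 5 := by
    rw [Finset.card_union_of_disjoint hT.disj, hT.cardX, hT.cardY]
  have hd10 : ∀ χ : IrrCharacter G, dg χ = 10 ∨ dg χ = 45 → χ ∉ X ∪ Y := by
    intro χ h hm
    apply (hiff χ).1 hm
    rcases h with h | h <;> rw [h] <;> norm_num
  have hd16 : ∀ χ : IrrCharacter G, dg χ = 1 ∨ dg χ = 16 → χ ∈ X ∪ Y := by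
    intro χ h
    apply (hiff χ).2
    rcases h with h | h <;> rw [h] <;> norm_num
  -- the remaining characters
  let L : Finset (IrrCharacter G) := {τ, e1, e2}
  let L' : Finset (IrrCharacter G) := {a1, a2, a3, b}
  have hτa1 : τ ≠ a1 := fun h => by have := T.da1; rw [← h, hτdg] at this; omega
  have hτa2 : τ ≠ a2 := fun h => by have := T.da2; rw [← h, hτdg] at this; omega
  have hτa3 : τ ≠ a3 := fun h => by have := T.da3; rw [← h, hτdg] at this; omega
  have hτb : τ ≠ b := fun h => by have := T.db; rw [← h, hτdg] at this; omega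
  have hτe1 : τ ≠ e1 := fun h => by have := T.de1; rw [← h, hτdg] at this; omega
  have hτe2 : τ ≠ e2 := fun h => by have := T.de2; rw [← h, hτdg] at this; omega
  have hda : ∀ χ ∈ L', dg χ = 10 ∨ dg χ = 45 := by
    intro χ hχ
    simp only [L', Finset.mem_insert, Finset.mem_singleton] at hχ
    rcases hχ with rfl | rfl | rfl | rfl
    · exact Or.inl T.da1
    · exact Or.inl T.da2
    · exact Or.inl T.da3
    · exact Or.inr T.db
  have hdL : ∀ χ ∈ L, dg χ = 1 ∨ dg χ = 16 := by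
    intro χ hχ
    simp only [L, Finset.mem_insert, Finset.mem_singleton] at hχ
    rcases hχ with rfl | rfl | rfl
    · exact Or.inl hτdg
    · exact Or.inr T.de1
    · exact Or.inr T.de2
  have hLcard : L.card = 3 := by
    simp only [L]
    rw [Finset.card_insert_of_notMem (by simp [hτe1, hτe2]), Finset.card_pair T.he]
  have hL'card : L'.card = 4 := by
    have h1 : a1 ≠ b := fun h => by have := T.da1; rw [h, T.db] at this; omega
    have h2 : a2 ≠ b := fun h => by have := T.da2; rw [h, T.db] at this; omega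
    have h3 : a3 ≠ b := fun h => by have := T.da3; rw [h, T.db] at this; omega
    simp only [L']
    rw [Finset.card_insert_of_notMem (by simp [T.h12, T.h13, h1]), Finset.card_insert_of_notMem (by simp [T.h23, h2]),
      Finset.card_pair h3]
  have hdisj : Disjoint L L' := by
    rw [Finset.disjoint_left]
    intro χ h1 h2
    rcases hdL χ h1 with h | h <;> rcases hda χ h2 with h' | h' <;> omega
  let Z : Finset (IrrCharacter G) := Finset.univ \ (L ∪ L')
  have hZ : ∀ χ ∈ Z, 11 ∣ dg χ := by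
    intro χ hχ
    have h1 : χ ∉ L ∪ L' := (Finset.mem_sdiff.1 hχ).2
    simp only [L, L', Finset.mem_union, Finset.mem_insert, Finset.mem_singleton, not_or] at h1
    exact T.out χ h1.1.1 h1.2.1 h1.2.2.1 h1.2.2.2.1 h1.2.2.2.2 h1.1.2.1 h1.1.2.2
  let Z5 := Z.filter (fun χ => ¬ 5 ∣ dg χ)
  let R := Z.filter (fun χ => 5 ∣ dg χ)
  have hXYe : X ∪ Y = L ∪ Z5 := by
    ext χ
    simp only [Finset.mem_union, Z5, Finset.mem_filter]
    constructor
    · intro h
      by_cases hL : χ ∈ L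
      · exact Or.inl hL
      · right
        refine ⟨Finset.mem_sdiff.2 ⟨Finset.mem_univ _, ?_⟩, (hiff χ).1 (Finset.mem_union.2 h)⟩
        rw [Finset.mem_union]
        rintro (h1 | h1)
        · exact hL h1
        · exact hd10 χ (hda χ h1) (Finset.mem_union.2 h)
    · rintro (h | h)
      · exact Finset.mem_union.1 (hd16 χ (hdL χ h))
      · exact Finset.mem_union.1 ((hiff χ).2 h.2)
  have hdisj2 : Disjoint L Z5 := by
    rw [Finset.disjoint_left]
    intro χ h1 h2
    have h3 := (Finset.mem_filter.1 h2).1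
    have h4 := (Finset.mem_sdiff.1 h3).2
    exact h4 (Finset.mem_union_left _ h1)
  have hZ5card : Z5.card = 2 := by
    have h1 := hXYcard
    rw [hXYe, Finset.card_union_of_disjoint hdisj2, hLcard] at h1
    omega
  obtain ⟨c1, c2, hcne, hZ5e⟩ := Finset.card_eq_two.1 hZ5card
  have hc1 : c1 ∈ Z5 := by rw [hZ5e]; simp
  have hc2 : c2 ∈ Z5 := by rw [hZ5e]; simp
  have hRdg : ∀ χ ∈ R, dg χ = 55 := by
    intro χ hχ
    obtain ⟨h1, h2⟩ := Finset.mem_filter.1 hχ
    have h3 := hZ χ h1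
    have h4 := hdg88 χ
    have h5 := dg_pos χ
    omega
  -- the sum of squares
  have hsumZ : ∑ χ ∈ Z, dg χ ^ 2 = 5082 := by
    have h1 : ∑ χ, dg χ ^ 2 = ∑ χ ∈ Z, dg χ ^ 2 + ∑ χ ∈ L ∪ L', dg χ ^ 2 :=
      (Finset.sum_sdiff (Finset.subset_univ _)).symm
    rw [sum_dg_sq, hG, Finset.sum_union hdisj] at h1
    have h2 : ∑ χ ∈ L, dg χ ^ 2 = 513 := by
      simp only [L]
      rw [Finset.sum_insert (by simp [hτe1, hτe2]), Finset.sum_pair T.he, hτdg, T.de1, T.de2]
      norm_num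
    have h3 : ∑ χ ∈ L', dg χ ^ 2 = 2325 := by
      have h1' : a1 ≠ b := fun h => by have := T.da1; rw [h, T.db] at this; omega
      have h2' : a2 ≠ b := fun h => by have := T.da2; rw [h, T.db] at this; omega
      have h3' : a3 ≠ b := fun h => by have := T.da3; rw [h, T.db] at this; omega
      simp only [L']
      rw [Finset.sum_insert (by simp [T.h12, T.h13, h1']), Finset.sum_insert (by simp [T.h23, h2']),
        Finset.sum_pair h3', T.da1, T.da2, T.da3, T.db]
      norm_num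
    omega
  have hsplit : ∑ χ ∈ Z, dg χ ^ 2 = ∑ χ ∈ R, dg χ ^ 2 + ∑ χ ∈ Z5, dg χ ^ 2 :=
    (Finset.sum_filter_add_sum_filter_not Z _ _).symm
  have hRsum : ∑ χ ∈ R, dg χ ^ 2 = 3025 * R.card := by
    rw [Finset.sum_congr rfl (fun χ hχ => by rw [hRdg χ hχ]), Finset.sum_const, smul_eq_mul]
    ring
  have hZ5sum : ∑ χ ∈ Z5, dg χ ^ 2 = dg c1 ^ 2 + dg c2 ^ 2 := by
    rw [hZ5e, Finset.sum_pair hcne]
  obtain ⟨k1, hk1⟩ := hZ c1 (Finset.mem_filter.1 hc1).1
  obtain ⟨k2, hk2⟩ := hZ c2 (Finset.mem_filter.1 hc2).1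
  have hk1pos : 0 < k1 := by
    have := dg_pos c1
    rw [hk1] at this
    omega
  have hk2pos : 0 < k2 := by
    have := dg_pos c2
    rw [hk2] at this
    omega
  have hk1le : k1 ≤ 8 := by
    have := hdg88 c1
    omega
  have hk2le : k2 ≤ 8 := by
    have := hdg88 c2
    omega
  have harith := arith_rest k1 k2 R.card hk1pos hk2pos hk1le hk2le (by
    have h1 : 3025 * R.card + (dg c1 ^ 2 + dg c2 ^ 2) = 5082 := by
      rw [← hRsum, ← hZ5sum, ← hsplit, hsumZ]
    rw [hk1, hk2] at h1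
    nlinarith)
  obtain ⟨hR1, hk⟩ := harith
  obtain ⟨d, hRe⟩ := Finset.card_eq_one.1 hR1
  have hdR : d ∈ R := by rw [hRe]; simp
  -- choose the labels
  obtain ⟨c, g, hcg, hZ5e', hdc, hdg⟩ : ∃ c g : IrrCharacter G, c ≠ g ∧ Z5 = {c, g} ∧ dg c = 11 ∧ dg g = 44 := by
    rcases hk with ⟨rfl, rfl⟩ | ⟨rfl, rfl⟩
    · exact ⟨c1, c2, hcne, hZ5e, by rw [hk1], by rw [hk2]⟩
    · exact ⟨c2, c1, hcne.symm, by rw [hZ5e, Finset.pair_comm], by rw [hk2], by rw [hk1]⟩
  have hZe : ∀ χ ∈ Z, χ = c ∨ χ = g ∨ χ = d := by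
    intro χ hχ
    by_cases h5 : 5 ∣ dg χ
    · have : χ ∈ R := Finset.mem_filter.2 ⟨hχ, h5⟩
      rw [hRe, Finset.mem_singleton] at this
      exact Or.inr (Or.inr this)
    · have : χ ∈ Z5 := Finset.mem_filter.2 ⟨hχ, h5⟩
      rw [hZ5e', Finset.mem_insert, Finset.mem_singleton] at this
      rcases this with h | h
      · exact Or.inl h
      · exact Or.inr (Or.inl h)
  refine ⟨a1, a2, a3, b, e1, e2, c, g, d,
    { t11 := T, dc := hdc, dg' := hdg, dd := hRdg d hdR, all := ?_, rel5 := ?_ }⟩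
  · intro χ
    by_cases hχ : χ ∈ Z
    · rcases hZe χ hχ with rfl | rfl | rfl <;> simp
    · have h1 : χ ∈ L ∪ L' := by
        by_contra h2
        exact hχ (Finset.mem_sdiff.2 ⟨Finset.mem_univ _, h2⟩)
      simp only [L, L', Finset.mem_union, Finset.mem_insert, Finset.mem_singleton] at h1
      rcases h1 with (h | h | h) | (h | h | h | h) <;> simp [h, hτ]
  · intro u hu
    obtain ⟨θ₀, hY1⟩ := Finset.card_eq_one.1 hT.cardY
    have hθ₀ : θ₀ ∈ Y := by rw [hY1]; simp
    have h1 := hT.rel u hu θ₀ hθ₀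
    have h2 : ∑ χ ∈ X ∪ Y, (σ χ : ℂ) * (χ : G → ℂ) u = 0 := by
      rw [Finset.sum_union hT.disj, hY1, Finset.sum_singleton]
      have h3 : ∀ χ ∈ X, (σ χ : ℂ) * (χ : G → ℂ) u = (δ χ : ℂ) * (χ : G → ℂ) u := by
        intro χ hχ
        simp only [σ, if_pos hχ]
      rw [Finset.sum_congr rfl h3, ← h1]
      have h4 : θ₀ ∉ X := by
        intro h
        exact (Finset.disjoint_left.1 hT.disj h) hθ₀
      simp only [σ, if_neg h4]
      push_cast
      ring
    rw [hXYe, Finset.sum_union hdisj2, hZ5e', Finset.sum_pair hcg] at h2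
    simp only [L] at h2
    rw [Finset.sum_insert (by simp [hτe1, hτe2]), Finset.sum_pair T.he] at h2
    have hmem : ∀ χ : IrrCharacter G, ¬ 5 ∣ dg χ → χ ∈ X ∪ Y := fun χ h => (hiff χ).2 h
    have hs1 : ∀ χ : IrrCharacter G, (dg χ) % 5 = 1 → σ χ = 1 := by
      intro χ h
      obtain ⟨h3, h4⟩ := hσ χ (hmem χ (by omega))
      unfold Int.ModEq at h4
      rcases h3 with h3 | h3
      · exact h3
      · rw [h3] at h4
        omega
    have hs4 : ∀ χ : IrrCharacter G, (dg χ) % 5 = 4 → σ χ = -1 := by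
      intro χ h
      obtain ⟨h3, h4⟩ := hσ χ (hmem χ (by omega))
      unfold Int.ModEq at h4
      rcases h3 with h3 | h3
      · rw [h3] at h4
        omega
      · exact h3
    rw [hs1 τ (by rw [hτdg]), hs1 e1 (by rw [T.de1]), hs1 e2 (by rw [T.de2]), hs1 c (by rw [hdc]), hs4 g (by rw [hdg])] at h2
    simp only [hτ, Cfsg.Agent.Lib.Blocks.Principal.coe_trivChar] at h2
    push_cast at h2
    linear_combination h2

end Cfsg.Agent.Lib.M11Order
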