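import Mathlib
import Cfsg.Agent.Lib.M11Order.T10
import Cfsg.Agent.Lib.Char.CompleteCor

/-!
# Simple groups of order 7920: the values on elements of order three
-/

set_option autoImplicit false
set_option linter.style.haveILetI false
set_option linter.unusedVariables false
set_option linter.unusedSectionVars false

namespace Cfsg.Agent.Lib.M11Order

open Subgroup Cfsg Finset Cfsg.Agent.Lib.DefectOne

open scoped ComplexConjugate

universe u

variable {G : Type u} [Group G] [Fintype G] [IsSimpleGroup G]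

variable {a1 a2 a3 b e1 e2 c g d : IrrCharacter G}

section SumAll

variable [Fintype (IrrCharacter G)]

/-- The sum over all irreducible characters. -/
theorem T10.sum_all (T : T10 a1 a2 a3 b e1 e2 c g d) {α : Type*} [AddCommMonoid α] (F : IrrCharacter G → α) :
    ∑ χ, F χ = F (Cfsg.Agent.Lib.Blocks.Principal.trivChar G) + F a1 + F a2 + F a3 + F b + F e1 + F e2 + F c + F g + F d := by
  classical
  set τ : IrrCharacter G := Cfsg.Agent.Lib.Blocks.Principal.trivChar G with hτ
  have d0 : dg τ = 1 := dg_triv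
  have da1 := T.t11.da1
  have da2 := T.t11.da2
  have da3 := T.t11.da3
  have db := T.t11.db
  have de1 := T.t11.de1
  have de2 := T.t11.de2
  have dc := T.dc
  have dg' := T.dg'
  have dd := T.dd
  have hu : (Finset.univ : Finset (IrrCharacter G)) = {τ, a1, a2, a3, b, e1, e2, c, g, d} := by
    ext χ
    simp only [Finset.mem_univ, Finset.mem_insert, Finset.mem_singleton, true_iff]
    exact T.all χ
  rw [hu]
  have key : ∀ x y : IrrCharacter G, dg x ≠ dg y → x ≠ y := fun x y h h' => h (by rw [h'])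
  rw [Finset.sum_insert (by
      simp only [Finset.mem_insert, Finset.mem_singleton, not_or]
      refine ⟨key _ _ ?_, key _ _ ?_, key _ _ ?_, key _ _ ?_, key _ _ ?_, key _ _ ?_, key _ _ ?_, key _ _ ?_, key _ _ ?_⟩ <;>
        simp only [d0, da1, da2, da3, db, de1, de2, dc, dg', dd] <;> norm_num),
    Finset.sum_insert (by
      simp only [Finset.mem_insert, Finset.mem_singleton, not_or]
      refine ⟨T.t11.h12, T.t11.h13, key _ _ ?_, key _ _ ?_, key _ _ ?_, key _ _ ?_, key _ _ ?_, key _ _ ?_⟩ <;>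
        simp only [d0, da1, da2, da3, db, de1, de2, dc, dg', dd] <;> norm_num),
    Finset.sum_insert (by
      simp only [Finset.mem_insert, Finset.mem_singleton, not_or]
      refine ⟨T.t11.h23, key _ _ ?_, key _ _ ?_, key _ _ ?_, key _ _ ?_, key _ _ ?_, key _ _ ?_⟩ <;>
        simp only [d0, da1, da2, da3, db, de1, de2, dc, dg', dd] <;> norm_num),
    Finset.sum_insert (by
      simp only [Finset.mem_insert, Finset.mem_singleton, not_or]
      refine ⟨key _ _ ?_, key _ _ ?_, key _ _ ?_, key _ _ ?_, key _ _ ?_, key _ _ ?_⟩ <;>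
        simp only [d0, da1, da2, da3, db, de1, de2, dc, dg', dd] <;> norm_num),
    Finset.sum_insert (by
      simp only [Finset.mem_insert, Finset.mem_singleton, not_or]
      refine ⟨key _ _ ?_, key _ _ ?_, key _ _ ?_, key _ _ ?_, key _ _ ?_⟩ <;>
        simp only [d0, da1, da2, da3, db, de1, de2, dc, dg', dd] <;> norm_num),
    Finset.sum_insert (by
      simp only [Finset.mem_insert, Finset.mem_singleton, not_or]
      refine ⟨T.t11.he, key _ _ ?_, key _ _ ?_, key _ _ ?_⟩ <;>
        simp only [d0, da1, da2, da3, db, de1, de2, dc, dg', dd] <;> norm_num),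
    Finset.sum_insert (by
      simp only [Finset.mem_insert, Finset.mem_singleton, not_or]
      refine ⟨key _ _ ?_, key _ _ ?_, key _ _ ?_⟩ <;>
        simp only [d0, da1, da2, da3, db, de1, de2, dc, dg', dd] <;> norm_num),
    Finset.sum_insert (by
      simp only [Finset.mem_insert, Finset.mem_singleton, not_or]
      refine ⟨key _ _ ?_, key _ _ ?_⟩ <;>
        simp only [d0, da1, da2, da3, db, de1, de2, dc, dg', dd] <;> norm_num),
    Finset.sum_pair (key _ _ (by simp only [dg', dd]; norm_num))]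
  simp only [add_assoc]

end SumAll

/-- A character with a unique degree is real. -/
theorem real_of_unique (χ : IrrCharacter G)
    (h : ∀ χ' : IrrCharacter G, dg χ' = dg χ → χ' = χ) (u : G) : conj ((χ : G → ℂ) u) = (χ : G → ℂ) u := by
  let χ' : IrrCharacter G := ⟨_, Cfsg.Agent.Lib.Char.RealOver.isIrr_conj χ.2⟩
  have h1 : dg χ' = dg χ := by
    have h2 : (χ' : G → ℂ) 1 = (dg χ : ℂ) := by
      change conj ((χ : G → ℂ) 1) = _
      rw [dg_cast, Complex.conj_natCast]
    rw [dg_cast] at h2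
    exact_mod_cast h2
  have h2 := h χ' h1
  have h3 : (χ' : G → ℂ) u = conj ((χ : G → ℂ) u) := rfl
  rw [← h3, h2]

theorem T10.real_c (T : T10 a1 a2 a3 b e1 e2 c g d) (u : G) : conj ((c : G → ℂ) u) = (c : G → ℂ) u := by
  apply real_of_unique
  intro χ h
  rw [T.dc] at h
  have d0 : dg (Cfsg.Agent.Lib.Blocks.Principal.trivChar G) = 1 := dg_triv
  rcases T.all χ with h1 | h1 | h1 | h1 | h1 | h1 | h1 | h1 | h1 | h1 <;> subst h1 <;>
    first
      | rfl
      | (exfalso; simp only [d0, T.t11.da1, T.t11.da2, T.t11.da3, T.t11.db, T.t11.de1, T.t11.de2, T.dc, T.dg', T.dd] at h <;> omega)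

theorem T10.real_g (T : T10 a1 a2 a3 b e1 e2 c g d) (u : G) : conj ((g : G → ℂ) u) = (g : G → ℂ) u := by
  apply real_of_unique
  intro χ h
  rw [T.dg'] at h
  have d0 : dg (Cfsg.Agent.Lib.Blocks.Principal.trivChar G) = 1 := dg_triv
  rcases T.all χ with h1 | h1 | h1 | h1 | h1 | h1 | h1 | h1 | h1 | h1 <;> subst h1 <;>
    first
      | rfl
      | (exfalso; simp only [d0, T.t11.da1, T.t11.da2, T.t11.da3, T.t11.db, T.t11.de1, T.t11.de2, T.dc, T.dg', T.dd] at h <;> omega)

theorem T10.real_d (T : T10 a1 a2 a3 b e1 e2 c g d) (u : G) : conj ((d : G → ℂ) u) = (d : G → ℂ) u := by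
  apply real_of_unique
  intro χ h
  rw [T.dd] at h
  have d0 : dg (Cfsg.Agent.Lib.Blocks.Principal.trivChar G) = 1 := dg_triv
  rcases T.all χ with h1 | h1 | h1 | h1 | h1 | h1 | h1 | h1 | h1 | h1 <;> subst h1 <;>
    first
      | rfl
      | (exfalso; simp only [d0, T.t11.da1, T.t11.da2, T.t11.da3, T.t11.db, T.t11.de1, T.t11.de2, T.dc, T.dg', T.dd] at h <;> omega)

theorem T10.real_b (T : T10 a1 a2 a3 b e1 e2 c g d) (u : G) : conj ((b : G → ℂ) u) = (b : G → ℂ) u := by
  apply real_of_unique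
  intro χ h
  rw [T.t11.db] at h
  have d0 : dg (Cfsg.Agent.Lib.Blocks.Principal.trivChar G) = 1 := dg_triv
  rcases T.all χ with h1 | h1 | h1 | h1 | h1 | h1 | h1 | h1 | h1 | h1 <;> subst h1 <;>
    first
      | rfl
      | (exfalso; simp only [d0, T.t11.da1, T.t11.da2, T.t11.da3, T.t11.db, T.t11.de1, T.t11.de2, T.dc, T.dg', T.dd] at h <;> omega)

/-- The eigenvalue multiplicity, with a subgroup. -/
theorem eig_T (χ : IrrCharacter G) {y : G} (hy : y ^ 3 = 1) (hreal : conj ((χ : G → ℂ) y) = (χ : G → ℂ) y)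
    (T : Subgroup G) (hc : ∀ t ∈ T, t * y = y * t)
    (hv : ∀ t ∈ T, t ≠ 1 → (χ : G → ℂ) t = 0 ∧ (χ : G → ℂ) (y * t) = 0 ∧ (χ : G → ℂ) (y * y * t) = 0) :
    ∃ r : ℕ, (dg χ : ℂ) - (χ : G → ℂ) y = 3 * (Nat.card T : ℂ) * r := by
  classical
  letI : Fintype T := Fintype.ofFinite _
  obtain ⟨χ', k, ρ, hρ, rfl⟩ := χ
  have h2 := dg_cast (⟨ρ.character, k, ρ, hρ, rfl⟩ : IrrCharacter G)
  simp only at h2
  rw [Representation.char_one] at h2
  simp only [Module.finrank_fin_fun] at h2
  have h3 : k = dg (⟨ρ.character, k, ρ, hρ, rfl⟩ : IrrCharacter G) := by exact_mod_cast h2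
  rw [← h3]
  exact exists_eig3 ρ T hy hreal hc (fun t ht => hv t t.2 ht)

theorem eig_bot (χ : IrrCharacter G) {y : G} (hy : y ^ 3 = 1) (hreal : conj ((χ : G → ℂ) y) = (χ : G → ℂ) y) :
    ∃ r : ℕ, (dg χ : ℂ) - (χ : G → ℂ) y = 3 * r := by
  obtain ⟨r, hr⟩ := eig_T χ hy hreal ⊥ (by
    intro t ht
    rw [Subgroup.mem_bot.1 ht]
    simp) (by
    intro t ht ht1
    exact absurd (Subgroup.mem_bot.1 ht) ht1)
  refine ⟨r, ?_⟩
  rw [hr, Subgroup.card_bot]
  simp

section Local

variable (hG : Nat.card G = 7920)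

include hG

/-- The centralizer of an element with non-trivial `{2,3}`-part has order dividing 144. -/
theorem cent_dvd (T : Tab11 a1 a2 a3 b e1 e2) {u : G} (h5 : ¬ orderOf u ∣ 5) (h11 : ¬ orderOf u ∣ 11) :
    Nat.card (centralizer ({u} : Set G)) ∣ 144 := by
  classical
  haveI : Fact (Nat.Prime 5) := ⟨by norm_num⟩
  haveI : Fact (Nat.Prime 11) := ⟨by norm_num⟩
  set C := centralizer ({u} : Set G) with hC
  have hmem : ∀ c : C, (c : G) * u = u * c := fun c => Subgroup.mem_centralizer_singleton_iff.1 c.2 |>.symm ▸ rfl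
  have hnot5 : ¬ 5 ∣ Nat.card C := by
    intro h
    obtain ⟨x, hx⟩ := exists_prime_orderOf_dvd_card' 5 h
    have hco : orderOf (x : G) = 5 := by rw [Subgroup.orderOf_coe, hx]
    have h1 : u ∈ zpowers (x : G) := selfC5 hG T hco (hmem x).symm
    have h2 := Subgroup.orderOf_dvd_natCard _ h1
    rw [Nat.card_zpowers, hco] at h2
    exact h5 h2
  have hnot11 : ¬ 11 ∣ Nat.card C := by
    intro h
    obtain ⟨x, hx⟩ := exists_prime_orderOf_dvd_card' 11 h
    have hco : orderOf (x : G) = 11 := by rw [Subgroup.orderOf_coe, hx]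
    have h1 : u ∈ zpowers (x : G) := selfC11 hG hco (hmem x).symm
    have h2 := Subgroup.orderOf_dvd_natCard _ h1
    rw [Nat.card_zpowers, hco] at h2
    exact h11 h2
  have h4 : Nat.card C ∣ 144 * 55 := by
    rw [show 144 * 55 = 7920 by norm_num, ← hG]
    exact Subgroup.card_subgroup_dvd_card C
  refine Nat.Coprime.dvd_of_dvd_mul_right ?_ h4
  rw [show 55 = 5 * 11 by norm_num]
  apply Nat.Coprime.mul_right
  · exact ((Nat.Prime.coprime_iff_not_dvd (by norm_num)).2 hnot5).symm
  · exact ((Nat.Prime.coprime_iff_not_dvd (by norm_num)).2 hnot11).symm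

omit hG in
/-- The order of a Sylow 3-subgroup. -/
theorem card_sylow3 (hG : Nat.card G = 7920) (Q : Sylow 3 G) : Nat.card (Q : Subgroup G) = 9 := by
  haveI : Fact (Nat.Prime 3) := ⟨by norm_num⟩
  have h1 : 3 ^ 2 ∣ Nat.card (Q : Subgroup G) := Q.pow_dvd_card_of_pow_dvd_card (by rw [hG]; norm_num)
  obtain ⟨n, hn⟩ := IsPGroup.iff_card.1 Q.isPGroup'
  have h2 : Nat.card (Q : Subgroup G) ∣ 7920 := by
    rw [← hG]
    exact Subgroup.card_subgroup_dvd_card _
  rw [hn] at h1 h2 ⊢
  have h3 : 2 ≤ n := (Nat.pow_dvd_pow_iff_le_right (by norm_num)).1 h1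
  have h4 : n ≤ 2 := by
    by_contra h
    have h5 : 3 ^ 3 ∣ 3 ^ n := pow_dvd_pow 3 (by omega)
    have h6 := h5.trans h2
    norm_num at h6
  have h5 : n = 2 := by omega
  rw [h5]
  norm_num

omit hG in
theorem sylow3_comm (hG : Nat.card G = 7920) (Q : Sylow 3 G) {u v : G} (hu : u ∈ (Q : Subgroup G)) (hv : v ∈ (Q : Subgroup G)) :
    u * v = v * u := by
  haveI : Fact (Nat.Prime 3) := ⟨by norm_num⟩
  have h1 := card_sylow3 hG Q
  have h2 : Nat.card (Q : Subgroup G) = 3 ^ 2 := by rw [h1]; norm_num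
  have h3 := IsPGroup.commutative_of_card_eq_prime_sq h2 ⟨u, hu⟩ ⟨v, hv⟩
  exact congrArg Subtype.val h3

end Local

end Cfsg.Agent.Lib.M11Order
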