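import Mathlib
import Cfsg.Agent.Lib.M11Order.Rows

/-!
# Simple groups of order 7920: the row of an element of order three
-/

set_option autoImplicit false
set_option linter.style.haveILetI false
set_option linter.unusedVariables false
set_option linter.unusedSectionVars false

namespace Cfsg.Agent.Lib.M11Order

open Subgroup Cfsg Finset Cfsg.Agent.Lib.DefectOne

open scoped ComplexConjugate

universe u

section Num

theorem cs3 (z₁ z₂ z₃ : ℂ) (A : ℝ) (h : z₁ + z₂ + z₃ = (A : ℂ)) :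
    A ^ 2 ≤ 3 * (‖z₁‖ ^ 2 + ‖z₂‖ ^ 2 + ‖z₃‖ ^ 2) := by
  have h1 := congrArg Complex.re h
  simp only [Complex.add_re, Complex.ofReal_re] at h1
  rw [Complex.sq_norm, Complex.sq_norm, Complex.sq_norm, Complex.normSq_apply, Complex.normSq_apply, Complex.normSq_apply]
  rw [← h1]
  nlinarith [sq_nonneg (z₁.re - z₂.re), sq_nonneg (z₁.re - z₃.re), sq_nonneg (z₂.re - z₃.re), sq_nonneg z₁.im, sq_nonneg z₂.im,
    sq_nonneg z₃.im]

theorem cs3_eq (z₁ z₂ z₃ : ℂ) (h : z₁ + z₂ + z₃ = 3) (hS : ‖z₁‖ ^ 2 + ‖z₂‖ ^ 2 + ‖z₃‖ ^ 2 = 3) :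
    z₁ = 1 ∧ z₂ = 1 ∧ z₃ = 1 := by
  have h1 := congrArg Complex.re h
  simp only [Complex.add_re] at h1
  have h3 : (3 : ℂ).re = 3 := by norm_num
  rw [h3] at h1
  rw [Complex.sq_norm, Complex.sq_norm, Complex.sq_norm, Complex.normSq_apply, Complex.normSq_apply, Complex.normSq_apply] at hS
  have key : (z₁.re - 1) ^ 2 + z₁.im ^ 2 + ((z₂.re - 1) ^ 2 + z₂.im ^ 2) + ((z₃.re - 1) ^ 2 + z₃.im ^ 2) = 0 := by
    nlinarith
  have hpos : ∀ r s : ℝ, 0 ≤ (r - 1) ^ 2 + s ^ 2 := fun r s => by positivity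
  have hz : ∀ z : ℂ, (z.re - 1) ^ 2 + z.im ^ 2 = 0 → z = 1 := by
    intro z hz
    have h4 : (z.re - 1) ^ 2 = 0 := by nlinarith [sq_nonneg (z.re - 1), sq_nonneg z.im]
    have h5 : z.im ^ 2 = 0 := by nlinarith [sq_nonneg (z.re - 1), sq_nonneg z.im]
    apply Complex.ext
    · have := pow_eq_zero_iff (two_ne_zero) |>.1 h4
      simp only [Complex.one_re]
      linarith
    · have := pow_eq_zero_iff (two_ne_zero) |>.1 h5
      simpa using this
  have h6 := hpos z₁.re z₁.im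
  have h7 := hpos z₂.re z₂.im
  have h8 := hpos z₃.re z₃.im
  exact ⟨hz _ (by linarith), hz _ (by linarith), hz _ (by linarith)⟩

theorem arith_row (β : ℕ) (g : ℤ) (N : ℕ) (hN : N = 9 ∨ N = 18 ∨ N = 36 ∨ N = 72 ∨ N = 144) (hg3 : g % 3 = 2)
    (h2 : 2 ∣ N → 2 ∣ β) (h4 : 4 ∣ N → 4 ∣ β) (h16 : 16 ∣ N → 16 ∣ β)
    (hcs : 3 * ((β : ℤ) - 5) ^ 2 + 1 + 2 * (16 - 3 * (β : ℤ)) ^ 2 + (g - 1 - 2 * (16 - 3 * (β : ℤ))) ^ 2 + 2 * g ^ 2 ≤ (N : ℤ)) :
    β = 6 ∧ g = -1 ∧ N = 18 := by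
  have hN144 : (N : ℤ) ≤ 144 := by
    rcases hN with rfl | rfl | rfl | rfl | rfl <;> norm_num
  have hβ0 : (0 : ℤ) ≤ β := Int.natCast_nonneg β
  have hb1 : 3 ≤ β := by
    by_contra h
    have h' : (β : ℤ) ≤ 2 := by omega
    nlinarith [sq_nonneg ((β : ℤ) - 5), sq_nonneg (g - 1 - 2 * (16 - 3 * (β : ℤ))), sq_nonneg g]
  have hb2 : β ≤ 8 := by
    by_contra h
    have h' : (9 : ℤ) ≤ β := by omega
    nlinarith [sq_nonneg ((β : ℤ) - 5), sq_nonneg (g - 1 - 2 * (16 - 3 * (β : ℤ))), sq_nonneg g]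
  have hg1 : -8 ≤ g := by
    by_contra h
    have h' : g ≤ -9 := by omega
    nlinarith [sq_nonneg ((β : ℤ) - 5), sq_nonneg (g - 1 - 2 * (16 - 3 * (β : ℤ))), sq_nonneg (16 - 3 * (β : ℤ))]
  have hg2 : g ≤ 8 := by
    by_contra h
    have h' : 9 ≤ g := by omega
    nlinarith [sq_nonneg ((β : ℤ) - 5), sq_nonneg (g - 1 - 2 * (16 - 3 * (β : ℤ))), sq_nonneg (16 - 3 * (β : ℤ))]
  rcases hN with rfl | rfl | rfl | rfl | rfl <;> interval_cases β <;> interval_cases g <;>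
    first
      | omega
      | (norm_num at hcs)
      | (norm_num at h2 h4 h16)
      | simp_all

end Num

variable {G : Type u} [Group G] [Fintype G] [IsSimpleGroup G]

variable {a1 a2 a3 b e1 e2 c g d : IrrCharacter G}

section Main

variable (hG : Nat.card G = 7920)

include hG

/-- The values of `e1` on the elements `y t`, `t` in a 2-subgroup of `C(y)`. -/
theorem two_pow_dvd_beta (T : T10 a1 a2 a3 b e1 e2 c g d) {y : G} (hy : orderOf y = 3)
    (hreal : conj ((e1 : G → ℂ) y) = (e1 : G → ℂ) y) {k : ℕ} (hk : 2 ^ k ∣ Nat.card (centralizer ({y} : Set G)))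
    {β : ℕ} (hβ : (16 : ℂ) - (e1 : G → ℂ) y = 3 * β) : 2 ^ k ∣ β := by
  classical
  haveI : Fact (Nat.Prime 2) := ⟨by norm_num⟩
  obtain ⟨K, hK⟩ := Sylow.exists_subgroup_card_pow_prime 2 hk
  set S : Subgroup G := K.map (centralizer ({y} : Set G)).subtype with hS
  have hScard : Nat.card S = 2 ^ k := by
    rw [hS, Subgroup.card_subtype, hK]
  have hy3 : y ^ 3 = 1 := by rw [← hy]; exact pow_orderOf_eq_one y
  have hScomm : ∀ t ∈ S, t * y = y * t := by
    intro t ht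
    obtain ⟨t', -, rfl⟩ := ht
    exact Subgroup.mem_centralizer_singleton_iff.1 t'.2 |>.symm ▸ rfl
  have hyy : orderOf (y * y) = 3 := by
    rw [← pow_two, Nat.Coprime.orderOf_pow (by rw [hy]; norm_num), hy]
  have heven : ∀ t ∈ S, t ≠ 1 → 2 ∣ orderOf t := by
    intro t ht ht1
    have h1 := Subgroup.orderOf_dvd_natCard S ht
    rw [hScard] at h1
    obtain ⟨j, -, hj⟩ := (Nat.dvd_prime_pow (by norm_num)).1 h1
    rw [hj]
    rcases Nat.eq_zero_or_pos j with h | h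
    · subst h
      rw [pow_zero] at hj
      exact absurd (orderOf_eq_one_iff.1 hj) ht1
    · exact dvd_pow_self 2 h.ne'
  have hz : ∀ u : G, 2 ∣ orderOf u → (e1 : G → ℂ) u = 0 := fun u hu =>
    dz e1 2 4 (by norm_num) (by rw [hG]; norm_num) (by rw [hG]; norm_num) (by rw [T.t11.de1]; norm_num) u hu
  have hmul : ∀ (w t : G), orderOf w = 3 → t ∈ S → t ≠ 1 → Commute w t → 2 ∣ orderOf (w * t) := by
    intro w t hw ht ht1 hc
    have h1 := Subgroup.orderOf_dvd_natCard S ht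
    rw [hScard] at h1
    have hcop : Nat.Coprime (orderOf w) (orderOf t) := by
      rw [hw]
      exact Nat.Coprime.coprime_dvd_right h1 (Nat.Coprime.pow_right k (by norm_num))
    rw [hc.orderOf_mul_eq_mul_orderOf_of_coprime hcop]
    exact Dvd.dvd.mul_left (heven t ht ht1) _
  obtain ⟨r, hr⟩ := eig_T e1 hy3 hreal S hScomm (by
    intro t ht ht1
    refine ⟨hz t (heven t ht ht1), hz _ (hmul y t hy ht ht1 (hScomm t ht).symm), hz _ (hmul (y * y) t hyy ht ht1 ?_)⟩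
    exact (Commute.mul_left (hScomm t ht).symm (hScomm t ht).symm))
  rw [T.t11.de1, hScard] at hr
  have h1 : (3 : ℂ) * (β : ℂ) = 3 * ((2 ^ k : ℕ) : ℂ) * r := by
    rw [← hβ]
    push_cast
    push_cast at hr
    exact hr
  have h2 : β = 2 ^ k * r := by
    have h3 : (β : ℂ) = ((2 ^ k * r : ℕ) : ℂ) := by
      push_cast
      push_cast at h1
      have h3' : (3 : ℂ) ≠ 0 := by norm_num
      apply mul_left_cancel₀ h3'
      rw [h1]
      ring
    exact_mod_cast h3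
  rw [h2]
  exact dvd_mul_right _ _

/-- The row of an element of order three. -/
theorem row3 (T : T10 a1 a2 a3 b e1 e2 c g d) {y : G} (hy : orderOf y = 3) :
    (a1 : G → ℂ) y = 1 ∧ (a2 : G → ℂ) y = 1 ∧ (a3 : G → ℂ) y = 1 ∧ (b : G → ℂ) y = 0 ∧ (e1 : G → ℂ) y = -2 ∧
      (e2 : G → ℂ) y = -2 ∧ (c : G → ℂ) y = 2 ∧ (g : G → ℂ) y = -1 ∧ (d : G → ℂ) y = 1 ∧
      Nat.card (centralizer ({y} : Set G)) = 18 := by
  classical
  haveI : Fact (Nat.Prime 3) := ⟨by norm_num⟩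
  letI : Fintype (IrrCharacter G) := Fintype.ofFinite _
  have hy3 : y ^ 3 = 1 := by rw [← hy]; exact pow_orderOf_eq_one y
  have h11 : ¬ 11 ∣ orderOf y := by rw [hy]; norm_num
  have h5 : ¬ 5 ∣ orderOf y := by rw [hy]; norm_num
  have hy1 : y ≠ 1 := by
    intro h
    rw [h, orderOf_one] at hy
    omega
  set N := Nat.card (centralizer ({y} : Set G)) with hNdef
  have hN144 : N ∣ 144 := cent_dvd hG T.t11 (by rw [hy]; norm_num) (by rw [hy]; norm_num)
  have hN9 : 9 ∣ N := by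
    have hpg : IsPGroup 3 (zpowers y) := by
      apply IsPGroup.of_card (n := 1)
      rw [Nat.card_zpowers, hy, pow_one]
    obtain ⟨Q, hQ⟩ := hpg.exists_le_sylow
    have hyQ : y ∈ (Q : Subgroup G) := hQ (mem_zpowers y)
    have hle : (Q : Subgroup G) ≤ centralizer ({y} : Set G) := by
      intro q hq
      rw [Subgroup.mem_centralizer_singleton_iff]
      exact sylow3_comm hG Q hq hyQ
    have h1 := Subgroup.card_dvd_of_le hle
    rwa [card_sylow3 hG Q] at h1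
  have hNcases : N = 9 ∨ N = 18 ∨ N = 36 ∨ N = 72 ∨ N = 144 := by
    obtain ⟨k, hk⟩ := hN9
    obtain ⟨l, hl⟩ := hN144
    have hkl : k * l = 16 := by
      rw [hk] at hl
      nlinarith
    have hk16 : k ∣ 16 := Dvd.intro _ hkl
    have hmem : k ∈ Nat.divisors 16 := Nat.mem_divisors.2 ⟨hk16, by norm_num⟩
    have hlist : Nat.divisors 16 = {1, 2, 4, 8, 16} := by decide +kernel
    rw [hlist] at hmem
    simp only [Finset.mem_insert, Finset.mem_singleton] at hmem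
    omega
  have hb0 : (b : G → ℂ) y = 0 :=
    dz b 3 2 (by norm_num) (by rw [hG]; norm_num) (by rw [hG]; norm_num) (by rw [T.t11.db]; norm_num) y (by rw [hy])
  have he1 := T.t11.rel1 y h11
  have he2 := T.t11.rel2 y h11
  rw [hb0] at he1 he2
  have hreal : conj ((e1 : G → ℂ) y) = (e1 : G → ℂ) y := by
    rw [T.t11.cj, he1, he2]
  obtain ⟨β, hβ⟩ := eig_bot e1 hy3 hreal
  obtain ⟨γ, hγ⟩ := eig_bot c hy3 (T.real_c y)
  obtain ⟨γ', hγ'⟩ := eig_bot g hy3 (T.real_g y)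
  obtain ⟨γ'', hγ''⟩ := eig_bot d hy3 (T.real_d y)
  rw [T.t11.de1] at hβ
  rw [T.dc] at hγ
  rw [T.dg'] at hγ'
  rw [T.dd] at hγ''
  set f : ℤ := 16 - 3 * (β : ℤ) with hfdef
  set cI : ℤ := 11 - 3 * (γ : ℤ) with hcI
  set gI : ℤ := 44 - 3 * (γ' : ℤ) with hgI
  set dI : ℤ := 55 - 3 * (γ'' : ℤ) with hdI
  have hf : (e1 : G → ℂ) y = (f : ℂ) := by
    rw [hfdef]
    push_cast
    push_cast at hβ
    linear_combination -hβ
  have hf2 : (e2 : G → ℂ) y = (f : ℂ) := by rw [he2, ← he1, hf]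
  have hc : (c : G → ℂ) y = (cI : ℂ) := by
    rw [hcI]
    push_cast
    push_cast at hγ
    linear_combination -hγ
  have hg : (g : G → ℂ) y = (gI : ℂ) := by
    rw [hgI]
    push_cast
    push_cast at hγ'
    linear_combination -hγ'
  have hd : (d : G → ℂ) y = (dI : ℂ) := by
    rw [hdI]
    push_cast
    push_cast at hγ''
    linear_combination -hγ''
  have hA : (a1 : G → ℂ) y + (a2 : G → ℂ) y + (a3 : G → ℂ) y = ((1 - f : ℝ) : ℂ) := by
    push_cast
    rw [hf] at he1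
    linear_combination he1
  have hrel5 := T.rel5 y h5
  rw [hf, hf2, hc, hg] at hrel5
  have hrel5Z : 1 + f + f + cI - gI = 0 := by exact_mod_cast hrel5
  -- the column of the identity
  have hcol1 : ∑ χ : IrrCharacter G, (χ : G → ℂ) y * conj ((χ : G → ℂ) 1) = 0 :=
    Cfsg.Agent.Lib.Char.CompleteCor.column_orth_not_conj (by
      intro h
      exact hy1 (isConj_one_right.1 h.symm))
  rw [T.sum_all] at hcol1
  simp only [dg_cast, Complex.conj_natCast, T.t11.da1, T.t11.da2, T.t11.da3, T.t11.db, T.t11.de1, T.t11.de2, T.dc, T.dg', T.dd,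
    dg_triv, Cfsg.Agent.Lib.Blocks.Principal.coe_trivChar] at hcol1
  rw [hb0, hf, hf2, hc, hg, hd] at hcol1
  have hdZ : dI = -gI := by
    have h1 : ((55 + 110 * f + 55 * cI + 55 * dI : ℤ) : ℂ) = 0 := by
      push_cast
      push_cast at hcol1 hA
      have h2 : (gI : ℂ) = 1 + f + f + cI := by
        have : ((1 + f + f + cI - gI : ℤ) : ℂ) = 0 := by rw [hrel5Z]; simp
        push_cast at this
        linear_combination -this
      rw [h2] at hcol1
      linear_combination hcol1 - 10 * hA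
    have h2 : 55 + 110 * f + 55 * cI + 55 * dI = 0 := by exact_mod_cast h1
    omega
  -- the norm of the column
  have hcol2 : ∑ χ : IrrCharacter G, (χ : G → ℂ) y * conj ((χ : G → ℂ) y) = (N : ℂ) :=
    Cfsg.Agent.Lib.Char.CompleteCor.column_orth_conj (IsConj.refl y)
  rw [T.sum_all] at hcol2
  simp only [Cfsg.Agent.Lib.Blocks.Principal.coe_trivChar] at hcol2
  rw [hb0, hf, hf2, hc, hg, hd, Complex.mul_conj ((a1 : G → ℂ) y), Complex.mul_conj ((a2 : G → ℂ) y),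
    Complex.mul_conj ((a3 : G → ℂ) y), Complex.normSq_eq_norm_sq, Complex.normSq_eq_norm_sq, Complex.normSq_eq_norm_sq] at hcol2
  simp only [map_intCast, map_one, map_zero, mul_zero, mul_one, zero_add, add_zero] at hcol2
  set S : ℝ := ‖(a1 : G → ℂ) y‖ ^ 2 + ‖(a2 : G → ℂ) y‖ ^ 2 + ‖(a3 : G → ℂ) y‖ ^ 2 with hS
  have hNR : (N : ℝ) = 1 + S + 2 * (f : ℝ) ^ 2 + (cI : ℝ) ^ 2 + (gI : ℝ) ^ 2 + (dI : ℝ) ^ 2 := by
    have h1 : ((N : ℝ) : ℂ) = ((1 + S + 2 * (f : ℝ) ^ 2 + (cI : ℝ) ^ 2 + (gI : ℝ) ^ 2 + (dI : ℝ) ^ 2 : ℝ) : ℂ) := by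
      rw [hS]
      push_cast at hcol2 ⊢
      rw [← hcol2]
      ring
    exact_mod_cast h1
  have hcs := cs3 _ _ _ _ hA
  rw [← hS] at hcs
  have hcI' : cI = gI - 1 - 2 * f := by omega
  have hineq : 3 * ((β : ℤ) - 5) ^ 2 + 1 + 2 * (16 - 3 * (β : ℤ)) ^ 2 + (gI - 1 - 2 * (16 - 3 * (β : ℤ))) ^ 2 + 2 * gI ^ 2 ≤ (N : ℤ) := by
    have h1 : (3 * ((β : ℝ) - 5) ^ 2 + 1 + 2 * (f : ℝ) ^ 2 + (cI : ℝ) ^ 2 + 2 * (gI : ℝ) ^ 2) ≤ (N : ℝ) := by
      have h2 : (1 - (f : ℝ)) = 3 * ((β : ℝ) - 5) := by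
        rw [hfdef]
        push_cast
        ring
      rw [h2] at hcs
      have h3 : (dI : ℝ) ^ 2 = (gI : ℝ) ^ 2 := by
        rw [hdZ]
        push_cast
        ring
      rw [hNR, h3]
      nlinarith
    rw [← hfdef, ← hcI']
    exact_mod_cast h1
  have hβ16 : (16 : ℂ) - (e1 : G → ℂ) y = 3 * β := by
    push_cast at hβ
    exact hβ
  obtain ⟨hβ6, hg1, hN18⟩ := arith_row β gI N hNcases (by omega)
    (fun h => by simpa using two_pow_dvd_beta hG T hy hreal (k := 1) (show 2 ^ 1 ∣ N by simpa using h) hβ16)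
    (fun h => by simpa using two_pow_dvd_beta hG T hy hreal (k := 2) (show 2 ^ 2 ∣ N by simpa using h) hβ16)
    (fun h => by simpa using two_pow_dvd_beta hG T hy hreal (k := 4) (show 2 ^ 4 ∣ N by simpa using h) hβ16) hineq
  have hf2' : f = -2 := by omega
  have hc2 : cI = 2 := by omega
  have hd1 : dI = 1 := by omega
  have hS3 : S = 3 := by
    rw [hN18, hf2', hc2, hd1, hg1] at hNR
    push_cast at hNR
    linarith
  have hA3 : (a1 : G → ℂ) y + (a2 : G → ℂ) y + (a3 : G → ℂ) y = 3 := by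
    rw [hA, hf2']
    push_cast
    norm_num
  obtain ⟨h1, h2, h3⟩ := cs3_eq _ _ _ hA3 hS3
  refine ⟨h1, h2, h3, hb0, ?_, ?_, ?_, ?_, ?_, hN18⟩
  · rw [hf, hf2']; norm_num
  · rw [hf2, hf2']; norm_num
  · rw [hc, hc2]; norm_num
  · rw [hg, hg1]; norm_num
  · rw [hd, hd1]; norm_num

end Main

end Cfsg.Agent.Lib.M11Order
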