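import Mathlib
import Cfsg.Agent.Lib.M11Order.Row3
import Cfsg.Agent.Lib.CharFS.Tri
import Cfsg.Agent.S0895

/-!
# Simple groups of order 7920: the involutions
-/

set_option autoImplicit false
set_option linter.style.haveILetI false
set_option linter.unusedVariables false
set_option linter.unusedSectionVars false

namespace Cfsg.Agent.Lib.M11Order

open Subgroup Cfsg Finset Cfsg.Agent.Lib.DefectOne Cfsg.Agent.Lib.CharFS.Indicator

open scoped ComplexConjugate

universe u

variable {G : Type u} [Group G] [Fintype G]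

/-- A prime order element acting on a set by conjugation without fixed points. -/
theorem free_dvd [DecidableEq G] {p : ℕ} [Fact p.Prime] {x : G} (hx : x ^ p = 1) (S : Finset G) (hS : ∀ s ∈ S, x * s * x⁻¹ ∈ S)
    (hfree : ∀ s ∈ S, x * s ≠ s * x) : p ∣ S.card := by
  classical
  let f : Function.End S := fun s => ⟨x * s * x⁻¹, hS _ s.2⟩
  have hpow : ∀ (n : ℕ) (s : S), (((f ^ n) s : S) : G) = x ^ n * s * (x ^ n)⁻¹ := by
    intro n
    induction n with
    | zero =>
      intro s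
      rw [pow_zero, pow_zero]
      change (s : G) = 1 * s * 1⁻¹
      simp
    | succ n ih =>
      intro s
      rw [pow_succ]
      change (((f ^ n) (f s) : S) : G) = _
      rw [ih]
      change x ^ n * (x * s * x⁻¹) * (x ^ n)⁻¹ = _
      rw [pow_succ]
      group
  have hf : f ^ p ^ 1 = 1 := by
    funext s
    apply Subtype.ext
    rw [pow_one, hpow, hx]
    change 1 * (s : G) * 1⁻¹ = (s : G)
    simp
  have h1 := Equiv.Perm.card_fixedPoints_modEq hf
  have h2 : IsEmpty (Function.fixedPoints f) := by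
    constructor
    rintro ⟨s, hs⟩
    have h3 : x * s * x⁻¹ = s := congrArg Subtype.val hs
    apply hfree s s.2
    calc x * s = x * s * x⁻¹ * x := by group
      _ = s * x := by rw [h3]
  have h3 : Fintype.card (Function.fixedPoints f) = 0 := Fintype.card_eq_zero
  rw [h3] at h1
  have h4 : Fintype.card S = S.card := Fintype.card_coe S
  rw [h4] at h1
  exact (Nat.modEq_zero_iff_dvd.1 h1)

variable [IsSimpleGroup G] {a1 a2 a3 b e1 e2 c g d : IrrCharacter G}

theorem nu_one_of_odd (χ : IrrCharacter G) (hreal : ∀ u, conj ((χ : G → ℂ) u) = (χ : G → ℂ) u) (hodd : Odd (dg χ)) :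
    nu (χ : G → ℂ) = 1 := by
  have h := Cfsg.Agent.S0895.result (χ : G → ℂ) χ.2 (fun u => Complex.conj_eq_iff_im.1 (hreal u)) (dg χ) (dg_cast χ) hodd
  unfold nu
  simpa only [pow_two] using h

section Main

variable (hG : Nat.card G = 7920)

include hG

/-- An involution commuting with an element of order `5` or `11` does not exist: the count modulo `55`. -/
theorem dvd55_inv (T : Tab11 a1 a2 a3 b e1 e2) [DecidableEq G] :
    55 ∣ (univ.filter (fun x : G => x ^ 2 = 1 ∧ x ≠ 1)).card := by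
  classical
  haveI : Fact (Nat.Prime 5) := ⟨by norm_num⟩
  haveI : Fact (Nat.Prime 11) := ⟨by norm_num⟩
  obtain ⟨x5, hx5⟩ := exists_prime_orderOf_dvd_card' (G := G) 5 (by rw [hG]; norm_num)
  obtain ⟨x11, hx11⟩ := exists_prime_orderOf_dvd_card' (G := G) 11 (by rw [hG]; norm_num)
  set S := univ.filter (fun x : G => x ^ 2 = 1 ∧ x ≠ 1) with hS
  have hconj : ∀ x : G, ∀ s ∈ S, x * s * x⁻¹ ∈ S := by
    intro x s hs
    simp only [hS, Finset.mem_filter, Finset.mem_univ, true_and] at hs ⊢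
    constructor
    · rw [conj_pow, hs.1]
      simp
    · intro h
      apply hs.2
      have : s = x⁻¹ * (x * s * x⁻¹) * x := by group
      rw [this, h]
      group
  have hinv : ∀ s ∈ S, orderOf s = 2 := by
    intro s hs
    simp only [hS, Finset.mem_filter, Finset.mem_univ, true_and] at hs
    exact orderOf_eq_prime hs.1 hs.2
  have h5 : 5 ∣ S.card := by
    refine free_dvd (by rw [← hx5]; exact pow_orderOf_eq_one x5) S (hconj x5) ?_
    intro s hs h
    have h1 : s ∈ zpowers x5 := selfC5 hG T hx5 h.symm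
    have h2 := Subgroup.orderOf_dvd_natCard _ h1
    rw [Nat.card_zpowers, hx5, hinv s hs] at h2
    omega
  have h11 : 11 ∣ S.card := by
    refine free_dvd (by rw [← hx11]; exact pow_orderOf_eq_one x11) S (hconj x11) ?_
    intro s hs h
    have h1 : s ∈ zpowers x11 := selfC11 hG hx11 h.symm
    have h2 := Subgroup.orderOf_dvd_natCard _ h1
    rw [Nat.card_zpowers, hx11, hinv s hs] at h2
    omega
  have : Nat.Coprime 5 11 := by norm_num
  exact this.mul_dvd_of_dvd_of_dvd h5 h11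

/-- The indicator is an integer in `{0, 1, -1}`. -/
theorem nu_vals (χ : IrrCharacter G) : ∃ n : ℤ, nu (χ : G → ℂ) = n ∧ (n = 0 ∨ n = 1 ∨ n = -1) := by
  by_cases h : ∃ u, conj ((χ : G → ℂ) u) ≠ (χ : G → ℂ) u
  · exact ⟨0, by simpa using Cfsg.Agent.Lib.CharFS.Tri.nu_of_not_real χ.2 h, Or.inl rfl⟩
  · push Not at h
    rcases Cfsg.Agent.Lib.CharFS.Tri.nu_of_real χ.2 h with h1 | h1
    · exact ⟨1, by simpa using h1, Or.inr (Or.inl rfl)⟩
    · exact ⟨-1, by simpa using h1, Or.inr (Or.inr rfl)⟩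

/-- The number of involutions. -/
theorem card_inv (T : T10 a1 a2 a3 b e1 e2 c g d) [DecidableEq G] :
    (univ.filter (fun x : G => x ^ 2 = 1 ∧ x ≠ 1)).card = 165 := by
  classical
  letI : Fintype (IrrCharacter G) := Fintype.ofFinite _
  have hFS := card_sqrt_one (G := G)
  rw [T.sum_all] at hFS
  simp only [dg_cast, T.t11.da1, T.t11.da2, T.t11.da3, T.t11.db, T.t11.de1, T.t11.de2, T.dc, T.dg', T.dd, dg_triv] at hFS
  have hτ := nu_one_of_odd (Cfsg.Agent.Lib.Blocks.Principal.trivChar G) (by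
    intro u
    simp) (by rw [dg_triv]; decide)
  have hb := nu_one_of_odd b T.real_b (by rw [T.t11.db]; decide)
  have hc := nu_one_of_odd c T.real_c (by rw [T.dc]; decide)
  have hd := nu_one_of_odd d T.real_d (by rw [T.dd]; decide)
  have hne : ∃ u, (e1 : G → ℂ) u ≠ (e2 : G → ℂ) u := by
    by_contra h
    push Not at h
    exact T.t11.he (Subtype.ext (funext h))
  obtain ⟨u₀, hu₀⟩ := hne
  have he1 : nu (e1 : G → ℂ) = 0 := Cfsg.Agent.Lib.CharFS.Tri.nu_of_not_real e1.2 ⟨u₀, by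
    rw [T.t11.cj]
    exact hu₀.symm⟩
  have he2 : nu (e2 : G → ℂ) = 0 := Cfsg.Agent.Lib.CharFS.Tri.nu_of_not_real e2.2 ⟨u₀, by
    rw [← T.t11.cj, Complex.conj_conj, T.t11.cj]
    exact hu₀⟩
  obtain ⟨n1, hn1, hn1'⟩ := nu_vals hG a1
  obtain ⟨n2, hn2, hn2'⟩ := nu_vals hG a2
  obtain ⟨n3, hn3, hn3'⟩ := nu_vals hG a3
  have hg : nu (g : G → ℂ) = 1 ∨ nu (g : G → ℂ) = -1 := Cfsg.Agent.Lib.CharFS.Tri.nu_of_real g.2 T.real_g
  obtain ⟨ng, hng, hng'⟩ : ∃ n : ℤ, nu (g : G → ℂ) = n ∧ (n = 1 ∨ n = -1) := by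
    rcases hg with h | h
    · exact ⟨1, by simpa using h, Or.inl rfl⟩
    · exact ⟨-1, by simpa using h, Or.inr rfl⟩
  rw [hτ, hb, hc, hd, he1, he2, hn1, hn2, hn3, hng] at hFS
  have hsplit : (univ.filter (fun x : G => x ^ 2 = 1)).card = (univ.filter (fun x : G => x ^ 2 = 1 ∧ x ≠ 1)).card + 1 := by
    have h1 : univ.filter (fun x : G => x ^ 2 = 1) = insert 1 (univ.filter (fun x : G => x ^ 2 = 1 ∧ x ≠ 1)) := by
      ext x
      simp only [Finset.mem_filter, Finset.mem_univ, true_and, Finset.mem_insert]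
      by_cases hx : x = 1
      · simp [hx]
      · simp [hx]
    rw [h1, Finset.card_insert_of_notMem (by simp)]
  have h55 := dvd55_inv hG T.t11
  set I := (univ.filter (fun x : G => x ^ 2 = 1 ∧ x ≠ 1)).card with hI
  rw [hsplit] at hFS
  have hZ : ((I : ℤ) + 1 : ℤ) = 1 + n1 * 10 + n2 * 10 + n3 * 10 + 45 + 11 + ng * 44 + 55 := by
    have h1 : (((I : ℤ) + 1 : ℤ) : ℂ) = ((1 + n1 * 10 + n2 * 10 + n3 * 10 + 45 + 11 + ng * 44 + 55 : ℤ) : ℂ) := by
      push_cast
      push_cast at hFS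
      rw [hFS]
      simp
    exact_mod_cast h1
  obtain ⟨k, hk⟩ := h55
  omega

end Main

end Cfsg.Agent.Lib.M11Order
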