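import Mathlib
import Cfsg.Agent.Lib.M11Order.Inv
import Cfsg.Agent.Lib.M11Rec.Basic
import Cfsg.Agent.Lib.Char.Integrality

/-!
# Simple groups of order 7920: the hypotheses of the recognition theorem
-/

set_option autoImplicit false
set_option linter.style.haveILetI false
set_option linter.unusedVariables false
set_option linter.unusedSectionVars false

namespace Cfsg.Agent.Lib.M11Order

open Subgroup Cfsg Finset Cfsg.Agent.Lib.DefectOne Cfsg.Agent.Lib.Char.Integrality

open scoped ComplexConjugate

universe u

section General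

variable {G : Type u} [Group G]

theorem idx2 [Finite G] {H C : Subgroup G} (hle : H ≤ C) (hc : Nat.card C = 2 * Nat.card H) : (H.subgroupOf C).index = 2 := by
  have h1 := Subgroup.card_mul_index (H.subgroupOf C)
  have h2 : Nat.card (H.subgroupOf C) = Nat.card H := Nat.card_congr (Subgroup.subgroupOfEquivOfLe hle).toEquiv
  rw [h2, hc] at h1
  have h3 : 0 < Nat.card H := Nat.card_pos
  nlinarith

theorem mem_cent {u v : G} : v ∈ centralizer ({u} : Set G) ↔ u * v = v * u :=
  Subgroup.mem_centralizer_singleton_iff.trans eq_comm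

end General

variable {G : Type u} [Group G] [Fintype G] [IsSimpleGroup G] {a1 a2 a3 b e1 e2 c g d : IrrCharacter G}

variable (hG : Nat.card G = 7920)

include hG

/-- All elements of order three are conjugate. -/
theorem conj_ord3 (T : T10 a1 a2 a3 b e1 e2 c g d) {y y' : G} (hy : orderOf y = 3) (hy' : orderOf y' = 3) : IsConj y y' := by
  apply Cfsg.Agent.Lib.Char.CompleteCor.isConj_of_forall_irr
  intro χ
  obtain ⟨h1, h2, h3, h4, h5, h6, h7, h8, h9, -⟩ := row3 hG T hy
  obtain ⟨h1', h2', h3', h4', h5', h6', h7', h8', h9', -⟩ := row3 hG T hy'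
  rcases T.all χ with h | h | h | h | h | h | h | h | h | h <;> subst h
  · simp
  · rw [h1, h1']
  · rw [h2, h2']
  · rw [h3, h3']
  · rw [h4, h4']
  · rw [h5, h5']
  · rw [h6, h6']
  · rw [h7, h7']
  · rw [h8, h8']
  · rw [h9, h9']

/-- An involution: `x ^ 2 = 1`, `x ≠ 1`. -/
theorem inv_cent_cases (T : T10 a1 a2 a3 b e1 e2 c g d) {t : G} (ht : t ^ 2 = 1) (ht1 : t ≠ 1) :
    Nat.card (centralizer ({t} : Set G)) = 48 ∨ Nat.card (centralizer ({t} : Set G)) = 72 ∨
      Nat.card (centralizer ({t} : Set G)) = 144 := by
  classical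
  have hto : orderOf t = 2 := orderOf_eq_prime ht ht1
  have h144 := cent_dvd hG T.t11 (u := t) (by rw [hto]; norm_num) (by rw [hto]; norm_num)
  have hle : (classFinset t).card ≤ (univ.filter (fun x : G => x ^ 2 = 1 ∧ x ≠ 1)).card := by
    apply Finset.card_le_card
    intro s hs
    rw [mem_classFinset] at hs
    obtain ⟨w, rfl⟩ := isConj_iff.1 hs
    simp only [Finset.mem_filter, Finset.mem_univ, true_and]
    constructor
    · rw [conj_pow, ht]
      simp
    · intro h
      apply ht1
      have : t = w⁻¹ * (w * t * w⁻¹) * w := by group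
      rw [this, h]
      group
  rw [card_inv hG T, card_classFinset] at hle
  have h1 := Subgroup.card_mul_index (centralizer ({t} : Set G))
  rw [hG] at h1
  set N := Nat.card (centralizer ({t} : Set G))
  set J := (centralizer ({t} : Set G)).index
  have hN48 : 48 ≤ N := by
    by_contra h
    have : N ≤ 47 := by omega
    nlinarith
  have hmem : N ∈ Nat.divisors 144 := Nat.mem_divisors.2 ⟨h144, by norm_num⟩
  have hlist : (Nat.divisors 144) = {1, 2, 3, 4, 6, 8, 9, 12, 16, 18, 24, 36, 48, 72, 144} := by decide +kernel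
  rw [hlist] at hmem
  simp only [Finset.mem_insert, Finset.mem_singleton] at hmem
  omega

/-- A subgroup of order nine is a Sylow subgroup. -/
theorem exists_sylow_of_card9 {Q : Subgroup G} (hQ : Nat.card Q = 9) : ∃ R : Sylow 3 G, (R : Subgroup G) = Q := by
  haveI : Fact (Nat.Prime 3) := ⟨by norm_num⟩
  have hpg : IsPGroup 3 Q := by
    apply IsPGroup.of_card (n := 2)
    rw [hQ]
    norm_num
  obtain ⟨R, hR⟩ := hpg.exists_le_sylow
  refine ⟨R, ?_⟩
  symm
  apply Subgroup.eq_of_le_of_card_ge hR
  rw [card_sylow3 hG R, hQ]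

/-- The centralizer of an involution has order 48, and all involutions are conjugate. -/
theorem inv_main (T : T10 a1 a2 a3 b e1 e2 c g d) {t : G} (ht : t ^ 2 = 1) (ht1 : t ≠ 1) :
    Nat.card (centralizer ({t} : Set G)) = 48 ∧ ∀ v : G, v ^ 2 = 1 → v ≠ 1 → IsConj t v := by
  classical
  haveI : Fact (Nat.Prime 3) := ⟨by norm_num⟩
  have hcls : ∀ t : G, t ^ 2 = 1 → t ≠ 1 →
      classFinset t ⊆ univ.filter (fun x : G => x ^ 2 = 1 ∧ x ≠ 1) := by
    intro t ht ht1 s hs
    rw [mem_classFinset] at hs
    obtain ⟨w, rfl⟩ := isConj_iff.1 hs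
    simp only [Finset.mem_filter, Finset.mem_univ, true_and]
    constructor
    · rw [conj_pow, ht]
      simp
    · intro h
      apply ht1
      have : t = w⁻¹ * (w * t * w⁻¹) * w := by group
      rw [this, h]
      group
  have hI := card_inv hG T
  have hcard : ∀ t : G, (classFinset t).card * Nat.card (centralizer ({t} : Set G)) = 7920 := by
    intro t
    rw [card_classFinset, mul_comm, Subgroup.card_mul_index, hG]
  have hnot9 : ¬ 3 ^ 2 ∣ Nat.card (centralizer ({t} : Set G)) := by
    intro h9
    obtain ⟨K, hK⟩ := Sylow.exists_subgroup_card_pow_prime 3 h9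
    set Q : Subgroup G := K.map (centralizer ({t} : Set G)).subtype with hQdef
    have hQ9 : Nat.card Q = 9 := by
      rw [hQdef, Subgroup.card_subtype, hK]
      norm_num
    obtain ⟨R, hR⟩ := exists_sylow_of_card9 hG hQ9
    have htR : ∀ q ∈ (R : Subgroup G), t * q = q * t := by
      intro q hq
      rw [hR] at hq
      obtain ⟨q', -, rfl⟩ := hq
      exact mem_cent.1 q'.2
    -- every involution is conjugate to `t`
    have hall : ∀ v : G, v ^ 2 = 1 → v ≠ 1 → IsConj t v := by
      intro v hv hv1
      have h3 : 3 ∣ Nat.card (centralizer ({v} : Set G)) := by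
        rcases inv_cent_cases hG T hv hv1 with h | h | h <;> rw [h] <;> norm_num
      obtain ⟨y', hy'⟩ := exists_prime_orderOf_dvd_card' 3 h3
      set y : G := (y' : G) with hy
      have hyo : orderOf y = 3 := by rw [hy, Subgroup.orderOf_coe, hy']
      have hvy : v * y = y * v := mem_cent.1 y'.2
      have hpg : IsPGroup 3 (zpowers y) := by
        apply IsPGroup.of_card (n := 1)
        rw [Nat.card_zpowers, hyo, pow_one]
      obtain ⟨R', hR'⟩ := hpg.exists_le_sylow
      have hyR' : y ∈ (R' : Subgroup G) := hR' (mem_zpowers y)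
      obtain ⟨w, hw⟩ := MulAction.exists_smul_eq G R R'
      set t' : G := w * t * w⁻¹ with ht'
      have ht'R : ∀ q ∈ (R' : Subgroup G), t' * q = q * t' := by
        intro q hq
        have h1 : w⁻¹ * q * w ∈ (R : Subgroup G) := by
          rw [← hw, Sylow.coe_subgroup_smul, Subgroup.mem_pointwise_smul_iff_inv_smul_mem] at hq
          exact hq
        have h2 := htR _ h1
        calc t' * q = w * (t * (w⁻¹ * q * w)) * w⁻¹ := by rw [ht']; group
          _ = w * ((w⁻¹ * q * w) * t) * w⁻¹ := by rw [h2]
          _ = q * t' := by rw [ht']; group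
      -- inside `C(y)`
      have hCy := (row3 hG T hyo).2.2.2.2.2.2.2.2.2
      set C := centralizer ({y} : Set G) with hC
      have hR'C : (R' : Subgroup G) ≤ C := by
        intro q hq
        rw [hC, mem_cent]
        exact sylow3_comm hG R' hyR' hq
      have hidx := idx2 hR'C (by rw [hCy, card_sylow3 hG R'])
      have hvC : v ∈ C := by
        rw [hC, mem_cent]
        exact hvy.symm
      have ht'C : t' ∈ C := by
        rw [hC, mem_cent]
        exact (ht'R y hyR').symm
      have hnotR : ∀ u : G, u ^ 2 = 1 → u ≠ 1 → u ∉ (R' : Subgroup G) := by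
        intro u hu hu1 huR
        have h1 := Subgroup.orderOf_dvd_natCard _ huR
        rw [card_sylow3 hG R', orderOf_eq_prime hu hu1] at h1
        omega
      have ht'2 : t' ^ 2 = 1 := by
        rw [ht', conj_pow, ht]
        simp
      have ht'1 : t' ≠ 1 := by
        intro h
        apply ht1
        have : t = w⁻¹ * t' * w := by rw [ht']; group
        rw [this, h]
        group
      have hmul : v * t' ∈ (R' : Subgroup G) := by
        have h1 := (Subgroup.mul_mem_iff_of_index_two hidx (a := ⟨v, hvC⟩) (b := ⟨t', ht'C⟩)).2 (by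
          simp only [Subgroup.mem_subgroupOf]
          exact iff_of_false (hnotR v hv hv1) (hnotR t' ht'2 ht'1))
        exact Subgroup.mem_subgroupOf.1 h1
      have hq2 : (v * t') ^ 2 = 1 := by
        have hcomm : v * t' = t' * v := by
          have h1 := ht'R _ hmul
          have h2 : t' * v * t' = v * t' * t' := by
            rw [mul_assoc]
            exact h1
          exact (mul_right_cancel h2).symm
        rw [(show Commute v t' from hcomm).mul_pow, hv, ht'2, one_mul]
      have hq1 : v * t' = 1 := by
        by_contra hne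
        exact hnotR _ hq2 hne hmul
      have hve : v = t' := by
        have h1 : v = t'⁻¹ := eq_inv_of_mul_eq_one_left hq1
        have h2 : t'⁻¹ = t' := by
          rw [inv_eq_iff_mul_eq_one, ← pow_two, ht'2]
        rw [h1, h2]
      rw [hve]
      exact isConj_iff.2 ⟨w, rfl⟩
    have hsub : univ.filter (fun x : G => x ^ 2 = 1 ∧ x ≠ 1) ⊆ classFinset t := by
      intro v hv
      simp only [Finset.mem_filter, Finset.mem_univ, true_and] at hv
      rw [mem_classFinset]
      exact hall v hv.1 hv.2
    have heq := Finset.Subset.antisymm (hcls t ht ht1) hsub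
    have h1 := hcard t
    rw [heq, hI] at h1
    have h2 : Nat.card (centralizer ({t} : Set G)) = 48 := by omega
    rw [h2] at h9
    norm_num at h9
  have h48 : Nat.card (centralizer ({t} : Set G)) = 48 := by
    rcases inv_cent_cases hG T ht ht1 with h | h | h
    · exact h
    · rw [h] at hnot9
      norm_num at hnot9
    · rw [h] at hnot9
      norm_num at hnot9
  refine ⟨h48, ?_⟩
  have h1 := hcard t
  rw [h48] at h1
  have hc165 : (classFinset t).card = 165 := by omega
  have heq : classFinset t = univ.filter (fun x : G => x ^ 2 = 1 ∧ x ≠ 1) :=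
    Finset.eq_of_subset_of_card_le (hcls t ht ht1) (by rw [hI, hc165])
  intro v hv hv1
  have : v ∈ classFinset t := by
    rw [heq]
    simp only [Finset.mem_filter, Finset.mem_univ, true_and]
    exact ⟨hv, hv1⟩
  exact (mem_classFinset t v).1 this

end Cfsg.Agent.Lib.M11Order
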