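import Mathlib
import Cfsg.Agent.Lib.M11Order.Hyp

/-!
# Simple groups of order 7920: Sylow 3-subgroups and the recognition hypotheses
-/

set_option autoImplicit false
set_option linter.style.haveILetI false
set_option linter.unusedVariables false
set_option linter.unusedSectionVars false

namespace Cfsg.Agent.Lib.M11Order

open Subgroup Cfsg Finset Cfsg.Agent.Lib.DefectOne Cfsg.Agent.Lib.Char.Integrality

open scoped ComplexConjugate

universe u

variable {G : Type u} [Group G] [Fintype G] [IsSimpleGroup G] {a1 a2 a3 b e1 e2 c g d : IrrCharacter G}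

variable (hG : Nat.card G = 7920)

include hG

/-- No involution commutes with a subgroup of order nine. -/
theorem not_inv_comm_nine (T : T10 a1 a2 a3 b e1 e2 c g d) {w : G} (hw : w ^ 2 = 1) (hw1 : w ≠ 1) {Q : Subgroup G}
    (hQ : Nat.card Q = 9) (hc : ∀ q ∈ Q, w * q = q * w) : False := by
  have h1 : Q ≤ centralizer ({w} : Set G) := fun q hq => mem_cent.2 (hc q hq)
  have h2 := Subgroup.card_dvd_of_le h1
  rw [hQ, (inv_main hG T hw hw1).1] at h2
  omega

/-- The Sylow 3-subgroups have exponent three. -/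
theorem exp3 (T : T10 a1 a2 a3 b e1 e2 c g d) (P : Sylow 3 G) {z : G} (hz : z ∈ (P : Subgroup G)) : z ^ 3 = 1 := by
  classical
  haveI : Fact (Nat.Prime 2) := ⟨by norm_num⟩
  by_contra hne
  have hz9 : orderOf z ∣ 9 := by
    have h1 := Subgroup.orderOf_dvd_natCard _ hz
    rwa [card_sylow3 hG P] at h1
  have hzo : orderOf z = 9 := by
    have hmem : orderOf z ∈ Nat.divisors 9 := Nat.mem_divisors.2 ⟨hz9, by norm_num⟩
    have hlist : Nat.divisors 9 = {1, 3, 9} := by decide +kernel
    rw [hlist] at hmem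
    simp only [Finset.mem_insert, Finset.mem_singleton] at hmem
    rcases hmem with h | h | h
    · exfalso
      apply hne
      rw [orderOf_eq_one_iff.1 h]
      simp
    · exfalso
      apply hne
      rw [← h]
      exact pow_orderOf_eq_one z
    · exact h
  set u : G := z ^ 3 with hu
  have huo : orderOf u = 3 := by
    have h1 := orderOf_pow' z (n := 3) (by norm_num)
    rw [hzo] at h1
    simpa using h1
  have hCu := (row3 hG T huo).2.2.2.2.2.2.2.2.2
  set C := centralizer ({u} : Set G) with hC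
  have hC2 : 2 ∣ Nat.card C := by rw [hCu]; norm_num
  obtain ⟨w', hw'⟩ := exists_prime_orderOf_dvd_card' 2 hC2
  set w : G := (w' : G) with hw
  have hwo : orderOf w = 2 := by rw [hw, Subgroup.orderOf_coe, hw']
  have hw2 : w ^ 2 = 1 := by rw [← hwo]; exact pow_orderOf_eq_one w
  have hw1 : w ≠ 1 := by
    intro h
    rw [h, orderOf_one] at hwo
    omega
  have huw : u * w = w * u := mem_cent.1 w'.2
  have hZC : zpowers z ≤ C := by
    rw [zpowers_le, hC, mem_cent, hu]
    exact ((Commute.refl z).pow_left 3).eq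
  have hidx := idx2 hZC (by rw [hCu, Nat.card_zpowers, hzo])
  haveI hnorm : ((zpowers z).subgroupOf C).Normal := Subgroup.normal_of_index_eq_two hidx
  have hzC : z ∈ C := hZC (mem_zpowers z)
  have hconj : w * z * w⁻¹ ∈ zpowers z := by
    have h1 := hnorm.conj_mem ⟨z, hzC⟩ (Subgroup.mem_subgroupOf.2 (mem_zpowers z)) w'
    exact Subgroup.mem_subgroupOf.1 h1
  obtain ⟨k, hk⟩ := (mem_powers_iff_mem_zpowers).2 hconj
  -- the exponent `k`
  have hkk : z ^ (k * k) = z := by
    have h1 : w * (w * z * w⁻¹) * w⁻¹ = z := by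
      have h2 : w * w = 1 := by rw [← pow_two, hw2]
      have h3 : w⁻¹ = w := by rw [inv_eq_iff_mul_eq_one, h2]
      rw [h3]
      calc w * (w * z * w) * w = (w * w) * z * (w * w) := by group
        _ = z := by rw [h2]; group
    have h2 : w * z ^ k * w⁻¹ = (w * z * w⁻¹) ^ k := (conj_pow).symm
    rw [pow_mul, ← hk, ← h2, ← hk] at *
    exact h1
  have hk3 : z ^ (k * 3) = z ^ 3 := by
    have h1 : w * u * w⁻¹ = u := by
      calc w * u * w⁻¹ = u * w * w⁻¹ := by rw [huw]
        _ = u := by group
    have h2 : w * z ^ 3 * w⁻¹ = (w * z * w⁻¹) ^ 3 := (conj_pow).symm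
    rw [hu] at h1
    rw [h2, ← hk, ← pow_mul] at h1
    exact h1
  have hk1 : z ^ k = z := by
    have h1 : k * k ≡ 1 [MOD 9] := by
      have h2 : z ^ (k * k) = z ^ 1 := by rw [hkk, pow_one]
      have h3 := (pow_eq_pow_iff_modEq (x := z)).1 h2
      rwa [hzo] at h3
    have h2 : k * 3 ≡ 3 [MOD 9] := by
      have h3 := (pow_eq_pow_iff_modEq (x := z)).1 hk3
      rwa [hzo] at h3
    have h3 : k ≡ 1 [MOD 9] := by
      have h4 : k % 9 < 9 := Nat.mod_lt _ (by norm_num)
      have h5 : k * k % 9 = (k % 9) * (k % 9) % 9 := Nat.mul_mod _ _ _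
      have h6 : k * 3 % 9 = (k % 9) * 3 % 9 := by rw [Nat.mul_mod, Nat.mod_eq_of_lt (show 3 < 9 by norm_num)]
      unfold Nat.ModEq at *
      rw [h5] at h1
      rw [h6] at h2
      generalize k % 9 = m at *
      interval_cases m <;> simp_all
    have h4 := (pow_eq_pow_iff_modEq (x := z) (n := k) (m := 1)).2 (by rwa [hzo])
    rwa [pow_one] at h4
  have hcomm : w * z = z * w := by
    calc w * z = w * z * w⁻¹ * w := by group
      _ = z ^ k * w := by rw [show z ^ k = w * z * w⁻¹ from hk]
      _ = z * w := by rw [hk1]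
  refine not_inv_comm_nine hG T hw2 hw1 (Q := zpowers z) (by rw [Nat.card_zpowers, hzo]) ?_
  intro q hq
  obtain ⟨l, rfl⟩ := Subgroup.mem_zpowers_iff.1 hq
  exact ((show Commute w z from hcomm).zpow_right l).eq

/-- Non-identity elements of a Sylow 3-subgroup have order three. -/
theorem ord3_of_mem (T : T10 a1 a2 a3 b e1 e2 c g d) (P : Sylow 3 G) {y : G} (hy : y ∈ (P : Subgroup G)) (hy1 : y ≠ 1) :
    orderOf y = 3 :=
  orderOf_eq_prime (exp3 hG T P hy) hy1

/-- A Sylow 3-subgroup is self-centralizing. -/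
theorem selfC3 (T : T10 a1 a2 a3 b e1 e2 c g d) (P : Sylow 3 G) {x : G} (hx : ∀ y ∈ (P : Subgroup G), x * y = y * x) :
    x ∈ (P : Subgroup G) := by
  classical
  haveI : Fact (Nat.Prime 2) := ⟨by norm_num⟩
  haveI : Fact (Nat.Prime 3) := ⟨by norm_num⟩
  set C := centralizer ((P : Subgroup G) : Set G) with hC
  have hPC : (P : Subgroup G) ≤ C := by
    intro q hq
    rw [hC, Subgroup.mem_centralizer_iff]
    intro r hr
    exact sylow3_comm hG P hr hq
  have hx' : x ∈ C := by
    rw [hC, Subgroup.mem_centralizer_iff]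
    intro r hr
    exact (hx r hr).symm
  have hP9 := card_sylow3 hG P
  -- pick a non-trivial element
  have h3 : 3 ∣ Nat.card (P : Subgroup G) := by rw [hP9]; norm_num
  obtain ⟨y', hy'⟩ := exists_prime_orderOf_dvd_card' 3 h3
  have hyo : orderOf (y' : G) = 3 := by rw [Subgroup.orderOf_coe, hy']
  have hCy := (row3 hG T hyo).2.2.2.2.2.2.2.2.2
  have hCle : C ≤ centralizer ({(y' : G)} : Set G) := by
    intro c hc
    rw [mem_cent]
    rw [hC, Subgroup.mem_centralizer_iff] at hc
    exact hc _ y'.2
  have h18 := Subgroup.card_dvd_of_le hCle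
  rw [hCy] at h18
  have h9 : 9 ∣ Nat.card C := by
    have := Subgroup.card_dvd_of_le hPC
    rwa [hP9] at this
  have hC9 : Nat.card C = 9 := by
    have hmem : Nat.card C ∈ Nat.divisors 18 := Nat.mem_divisors.2 ⟨h18, by norm_num⟩
    have hlist : Nat.divisors 18 = {1, 2, 3, 6, 9, 18} := by decide +kernel
    rw [hlist] at hmem
    simp only [Finset.mem_insert, Finset.mem_singleton] at hmem
    rcases hmem with h | h | h | h | h | h
    · omega
    · omega
    · omega
    · omega
    · exact h
    · exfalso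
      have h2 : 2 ∣ Nat.card C := by rw [h]; norm_num
      obtain ⟨w', hw'⟩ := exists_prime_orderOf_dvd_card' 2 h2
      have hwo : orderOf (w' : G) = 2 := by rw [Subgroup.orderOf_coe, hw']
      refine not_inv_comm_nine hG T (w := (w' : G)) (by rw [← hwo]; exact pow_orderOf_eq_one _) (by
        intro h0
        rw [h0, orderOf_one] at hwo
        omega) hP9 ?_
      intro q hq
      have h3 : (w' : G) ∈ centralizer (((P : Subgroup G)) : Set G) := w'.2
      exact (Subgroup.mem_centralizer_iff.1 h3 q hq).symm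
  have : (P : Subgroup G) = C := by
    apply Subgroup.eq_of_le_of_card_ge hPC
    rw [hC9, hP9]
  rw [this]
  exact hx'

/-- An element of order three lies in a unique Sylow 3-subgroup. -/
theorem sylow3_TI (T : T10 a1 a2 a3 b e1 e2 c g d) {y : G} (hy : orderOf y = 3) {P P' : Sylow 3 G}
    (h1 : y ∈ (P : Subgroup G)) (h2 : y ∈ (P' : Subgroup G)) : P = P' := by
  have hCy := (row3 hG T hy).2.2.2.2.2.2.2.2.2
  set C := centralizer ({y} : Set G) with hC
  have hle : ∀ R : Sylow 3 G, y ∈ (R : Subgroup G) → (R : Subgroup G) ≤ C := by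
    intro R hR q hq
    rw [hC, mem_cent]
    exact sylow3_comm hG R hR hq
  have hidx := idx2 (hle P h1) (by rw [hCy, card_sylow3 hG P])
  have hsub : (P' : Subgroup G) ≤ P := by
    intro q hq
    have hqC := hle P' h2 hq
    have h3 := Subgroup.sq_mem_of_index_two hidx ⟨q, hqC⟩
    have h4 : q ^ 2 ∈ (P : Subgroup G) := Subgroup.mem_subgroupOf.1 h3
    have h5 : q ^ 3 = 1 := exp3 hG T P' hq
    have h6 : q = (q ^ 2) ^ 2 := by
      rw [← pow_mul]
      calc q = q ^ 3 * q := by rw [h5, one_mul]
        _ = q ^ (2 * 2) := by rw [← pow_succ]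
    rw [h6]
    exact pow_mem h4 2
  apply Sylow.ext
  symm
  apply Subgroup.eq_of_le_of_card_ge hsub
  rw [card_sylow3 hG P, card_sylow3 hG P']

/-- The number of Sylow 3-subgroups. -/
theorem card_sylow3_eq (T : T10 a1 a2 a3 b e1 e2 c g d) : Nat.card (Sylow 3 G) = 55 := by
  classical
  haveI : Fact (Nat.Prime 3) := ⟨by norm_num⟩
  letI : Fintype (Sylow 3 G) := Fintype.ofFinite _
  obtain ⟨y₀, hy₀⟩ := exists_prime_orderOf_dvd_card' (G := G) 3 (by rw [hG]; norm_num)
  have hCy := (row3 hG T hy₀).2.2.2.2.2.2.2.2.2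
  let O := univ.filter (fun y : G => orderOf y = 3)
  have hOe : O = classFinset y₀ := by
    ext y
    simp only [O, Finset.mem_filter, Finset.mem_univ, true_and, mem_classFinset]
    constructor
    · intro h
      exact conj_ord3 hG T hy₀ h
    · intro h
      obtain ⟨w, rfl⟩ := isConj_iff.1 h
      rw [← hy₀, ← MulAut.conj_apply, MulEquiv.orderOf_eq]
  have hOcard : O.card = 440 := by
    rw [hOe, card_classFinset]
    have h1 := Subgroup.card_mul_index (centralizer ({y₀} : Set G))
    rw [hCy, hG] at h1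
    omega
  let S : Sylow 3 G → Finset G := fun P => univ.filter (fun y => y ∈ (P : Subgroup G) ∧ y ≠ 1)
  have hScard : ∀ P, (S P).card = 8 := by
    intro P
    set F : Finset G := univ.filter (fun y : G => y ∈ (P : Subgroup G)) with hF
    have h1 : S P = F.erase 1 := by
      ext y
      simp only [S, hF, Finset.mem_filter, Finset.mem_univ, true_and, Finset.mem_erase]
      tauto
    have h2 : F.card = 9 := by
      rw [hF, ← Fintype.card_subtype, ← Nat.card_eq_fintype_card]
      exact card_sylow3 hG P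
    have h3 : (1 : G) ∈ F := Finset.mem_filter.2 ⟨Finset.mem_univ _, one_mem _⟩
    rw [h1, Finset.card_erase_of_mem h3, h2]
  have hOU : O = univ.biUnion S := by
    ext y
    simp only [O, S, Finset.mem_filter, Finset.mem_univ, true_and, Finset.mem_biUnion]
    constructor
    · intro hy
      have hpg : IsPGroup 3 (zpowers y) := by
        apply IsPGroup.of_card (n := 1)
        rw [Nat.card_zpowers, hy, pow_one]
      obtain ⟨R, hR⟩ := hpg.exists_le_sylow
      refine ⟨R, hR (mem_zpowers y), ?_⟩
      intro h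
      rw [h, orderOf_one] at hy
      omega
    · rintro ⟨P, h1, h2⟩
      exact ord3_of_mem hG T P h1 h2
  have hdisj : ((univ : Finset (Sylow 3 G)) : Set (Sylow 3 G)).PairwiseDisjoint S := by
    intro P _ P' _ hne
    refine Finset.disjoint_left.2 ?_
    intro y h1 h2
    simp only [S, Finset.mem_filter, Finset.mem_univ, true_and] at h1 h2
    exact hne (sylow3_TI hG T (ord3_of_mem hG T P h1.1 h1.2) h1.1 h2.1)
  have h1 := Finset.card_biUnion hdisj
  rw [← hOU, hOcard, Finset.sum_congr rfl (fun P _ => hScard P), Finset.sum_const, smul_eq_mul, Finset.card_univ] at h1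
  rw [Nat.card_eq_fintype_card]
  omega

/-- The order of the normalizer of a Sylow 3-subgroup. -/
theorem card_norm3 (T : T10 a1 a2 a3 b e1 e2 c g d) (P : Sylow 3 G) :
    Nat.card (normalizer ((P : Subgroup G) : Set G)) = 144 := by
  haveI : Fact (Nat.Prime 3) := ⟨by norm_num⟩
  have h1 : (normalizer ((P : Subgroup G) : Set G)).index = Nat.card (Sylow 3 G) :=
    (Sylow.card_eq_index_normalizer P).symm
  have h2 := Subgroup.card_mul_index (normalizer ((P : Subgroup G) : Set G))
  rw [h1, card_sylow3_eq hG T, hG] at h2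
  omega

/-- An involution inverting a Sylow 3-subgroup. -/
theorem exists_inverting (T : T10 a1 a2 a3 b e1 e2 c g d) (P : Sylow 3 G) :
    ∃ t : G, t ^ 2 = 1 ∧ t ≠ 1 ∧ ∀ y ∈ (P : Subgroup G), t * y * t⁻¹ = y⁻¹ := by
  classical
  haveI : Fact (Nat.Prime 2) := ⟨by norm_num⟩
  haveI : Fact (Nat.Prime 3) := ⟨by norm_num⟩
  set N := normalizer ((P : Subgroup G) : Set G) with hN
  have hNc : Nat.card N = 144 := card_norm3 hG T P
  obtain ⟨K, hK⟩ := Sylow.exists_subgroup_card_pow_prime (G := N) 2 (n := 4) (by rw [hNc]; norm_num)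
  have hK16 : Nat.card K = 16 := by rw [hK]; norm_num
  have hKp : IsPGroup 2 K := IsPGroup.of_card (n := 4) hK
  haveI : Nontrivial K := by
    apply Finite.one_lt_card_iff_nontrivial.1
    rw [hK16]
    norm_num
  have hcn := hKp.center_nontrivial
  have h2Z : 2 ∣ Nat.card (Subgroup.center K) := by
    obtain ⟨m, hm⟩ := IsPGroup.iff_card.1 (hKp.to_subgroup (Subgroup.center K))
    rw [hm]
    rcases Nat.eq_zero_or_pos m with h | h
    · rw [h, pow_zero] at hm
      have := Finite.one_lt_card_iff_nontrivial.2 hcn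
      omega
    · exact dvd_pow_self 2 h.ne'
  obtain ⟨τ', hτ'⟩ := exists_prime_orderOf_dvd_card' 2 h2Z
  set τ : G := ((((τ' : Subgroup.center K) : K) : N) : G) with hτ
  have hτo : orderOf τ = 2 := by
    rw [hτ, Subgroup.orderOf_coe, Subgroup.orderOf_coe, Subgroup.orderOf_coe, hτ']
  have hτ2 : τ ^ 2 = 1 := by rw [← hτo]; exact pow_orderOf_eq_one τ
  have hτ1 : τ ≠ 1 := by
    intro h
    rw [h, orderOf_one] at hτo
    omega
  have hτN : τ ∈ N := (((τ' : Subgroup.center K) : K) : N).2
  have hτK : ∀ s ∈ K, τ * (s : G) = (s : G) * τ := by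
    intro s hs
    have h1 := Subgroup.mem_center_iff.1 τ'.2 ⟨s, hs⟩
    have h2 := congrArg (fun k : K => ((k : N) : G)) h1
    exact h2.symm
  -- `τ` has no fixed points on `P`
  have hfree : ∀ q ∈ (P : Subgroup G), τ * q = q * τ → q = 1 := by
    intro q hq hcomm
    by_contra hq1
    have hqo := ord3_of_mem hG T P hq hq1
    set F : Subgroup G := (P : Subgroup G) ⊓ centralizer ({τ} : Set G) with hF
    have hFd : Nat.card F ∣ 9 := by
      have := Subgroup.card_dvd_of_le (inf_le_left : F ≤ (P : Subgroup G))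
      rwa [card_sylow3 hG P] at this
    have hqF : q ∈ F := ⟨hq, mem_cent.2 hcomm⟩
    have hF3 : Nat.card F = 3 := by
      have hmem : Nat.card F ∈ Nat.divisors 9 := Nat.mem_divisors.2 ⟨hFd, by norm_num⟩
      have hlist : Nat.divisors 9 = {1, 3, 9} := by decide +kernel
      rw [hlist] at hmem
      simp only [Finset.mem_insert, Finset.mem_singleton] at hmem
      rcases hmem with h | h | h
      · exfalso
        have h1 : F = ⊥ := Subgroup.card_eq_one.1 h
        rw [h1] at hqF
        exact hq1 (Subgroup.mem_bot.1 hqF)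
      · exact h
      · exfalso
        have h1 : F = (P : Subgroup G) := by
          apply Subgroup.eq_of_le_of_card_ge inf_le_left
          rw [card_sylow3 hG P, h]
        refine not_inv_comm_nine hG T hτ2 hτ1 (card_sylow3 hG P) ?_
        intro r hr
        rw [← h1] at hr
        exact mem_cent.1 hr.2
    haveI : Fact (Nat.Prime 3) := ⟨by norm_num⟩
    have hdvd := card_norm_dvd (p := 3) hF3
    have hCF : centralizer (F : Set G) ≤ centralizer ({q} : Set G) := by
      intro x hx
      rw [mem_cent]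
      exact ((Subgroup.mem_centralizer_iff.1 hx) q hqF)
    have hCF18 := Subgroup.card_dvd_of_le hCF
    rw [(row3 hG T hqo).2.2.2.2.2.2.2.2.2] at hCF18
    -- `K` normalizes `F`
    have hKF : K.map N.subtype ≤ normalizer (F : Set G) := by
      have hfwd : ∀ s ∈ K, ∀ h ∈ F, (s : G) * h * (s : G)⁻¹ ∈ F := by
        intro s hs h hh
        refine ⟨?_, mem_cent.2 ?_⟩
        · exact (Subgroup.mem_normalizer_iff.1 s.2 h).1 hh.1
        · have h1 := mem_cent.1 hh.2
          have h2 := hτK s hs
          calc τ * ((s : G) * h * (s : G)⁻¹) = (τ * s) * h * (s : G)⁻¹ := by group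
            _ = s * τ * h * (s : G)⁻¹ := by rw [h2]
            _ = s * (τ * h) * (s : G)⁻¹ := by group
            _ = s * (h * τ) * (s : G)⁻¹ := by rw [h1]
            _ = s * h * (τ * (s : G)⁻¹) := by group
            _ = s * h * ((s : G)⁻¹ * τ) := by
              have h3 : τ * (s : G)⁻¹ = (s : G)⁻¹ * τ := by
                have h4 : Commute τ (s : G) := h2
                exact (h4.inv_right).eq
              rw [h3]
            _ = (s : G) * h * (s : G)⁻¹ * τ := by group
      rintro _ ⟨s, hs, rfl⟩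
      rw [Subgroup.mem_normalizer_iff]
      intro h
      constructor
      · intro hh
        exact hfwd s hs h hh
      · intro hh
        have h1 := hfwd s⁻¹ (inv_mem hs) _ hh
        have h2 : (((s⁻¹ : N) : G)) * ((N.subtype s) * h * (N.subtype s)⁻¹) * ((s⁻¹ : N) : G)⁻¹ = h := by
          simp only [Subgroup.coe_inv, Subgroup.subtype_apply]
          group
        rwa [h2] at h1
    have hKd := Subgroup.card_dvd_of_le hKF
    rw [Subgroup.card_subtype, hK16] at hKd
    have h16 : 16 ∣ Nat.card (centralizer (F : Set G)) * (3 - 1) := hKd.trans hdvd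
    have h36 : Nat.card (centralizer (F : Set G)) * (3 - 1) ∣ 18 * 2 := Nat.mul_dvd_mul hCF18 (by norm_num)
    have := h16.trans h36
    norm_num at this
  refine ⟨τ, hτ2, hτ1, ?_⟩
  intro y hy
  have hτy : τ * y * τ⁻¹ ∈ (P : Subgroup G) := (Subgroup.mem_normalizer_iff.1 hτN y).1 hy
  set r := y * (τ * y * τ⁻¹) with hr
  have hrP : r ∈ (P : Subgroup G) := mul_mem hy hτy
  have hτinv : τ⁻¹ = τ := by
    rw [inv_eq_iff_mul_eq_one, ← pow_two, hτ2]
  have hr1 : r = 1 := by
    apply hfree r hrP
    have h1 : τ * r * τ⁻¹ = (τ * y * τ⁻¹) * y := by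
      rw [hr, hτinv]
      have h2 : τ * τ = 1 := by rw [← pow_two, hτ2]
      calc τ * (y * (τ * y * τ)) * τ = τ * y * τ * y * (τ * τ) := by group
        _ = τ * y * τ * y := by rw [h2, mul_one]
    have h2 : (τ * y * τ⁻¹) * y = r := sylow3_comm hG P hτy hy
    calc τ * r = τ * r * τ⁻¹ * τ := by group
      _ = r * τ := by rw [h1, h2]
  exact eq_inv_of_mul_eq_one_right hr1

/-- The hypotheses of the recognition theorem. -/
theorem hyp_of_simple (T : T10 a1 a2 a3 b e1 e2 c g d) : Cfsg.Agent.Lib.M11Rec.Hyp G where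
  card := hG
  nsyl := card_sylow3_eq hG T
  ord3 := fun P y hy => exp3 hG T P hy
  cent := fun P y hy hy1 => (row3 hG T (ord3_of_mem hG T P hy hy1)).2.2.2.2.2.2.2.2.2
  selfC := fun P x hx => selfC3 hG T P hx
  conj3 := fun P y hy y' hy' h1 h2 => conj_ord3 hG T (ord3_of_mem hG T P hy h1) (ord3_of_mem hG T P hy' h2)
  invConj := fun t t' h1 h2 h3 h4 => (inv_main hG T h1 h2).2 t' h3 h4
  centInv := fun t h1 h2 => (inv_main hG T h1 h2).1
  inverted := fun P => exists_inverting hG T P

end Cfsg.Agent.Lib.M11Order
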